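import Mathlib

set_option autoImplicit false
set_option linter.unusedSectionVars false
set_option linter.unusedVariables false

namespace Cfsg.Agent.Lib.OddSym

open Equiv Equiv.Perm

variable {α : Type*} [DecidableEq α] [Fintype α]

/-- All orbits of `w` have odd length (in a loose sense). -/
def OddP (w : Perm α) : Prop := ∀ a, ∃ k : ℕ, Odd k ∧ (w ^ k) a = a

/-- Pull a fixed point through powers. -/
lemma pow_apply_of_fix {w : Perm α} {t : α} (h : w t = t) (i : ℕ) : (w ^ i) t = t := by
  induction i with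
  | zero => simp
  | succ n ih => rw [pow_succ, Perm.mul_apply, h, ih]

lemma OddP.orderOf_odd {w : Perm α} (h : OddP w) : Odd (orderOf w) := by
  classical
  choose k hk hka using h
  have hN : Odd (∏ a, k a) := by
    apply Finset.prod_induction _ (fun n => Odd n) (fun _ _ ha hb => ha.mul hb) odd_one
    intro a _; exact hk a
  have h1 : w ^ (∏ a, k a) = 1 := by
    ext a
    have hd : k a ∣ ∏ a, k a := Finset.dvd_prod_of_mem _ (Finset.mem_univ a)
    obtain ⟨c, hc⟩ := hd
    rw [hc, pow_mul]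
    have hfix : (w ^ k a) a = a := hka a
    exact pow_apply_of_fix hfix c
  exact Odd.of_dvd_nat hN (orderOf_dvd_of_pow_eq_one h1)

lemma oddP_of_orderOf_odd {w : Perm α} (h : Odd (orderOf w)) : OddP w :=
  fun a => ⟨orderOf w, h, by rw [pow_orderOf_eq_one]; rfl⟩

lemma oddP_one : OddP (1 : Perm α) := fun _ => ⟨1, odd_one, by simp⟩

/-- Insertion of two points after `p`. -/
lemma OddP.ins {w' w : Perm α} (h : OddP w') {p u v : α} (hpu : p ≠ u) (hpv : p ≠ v)
    (hu : w' u = u) (hv : w' v = v) (h1 : w p = u) (h2 : w u = v)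
    (h3 : w v = w' p)
    (hrest : ∀ t, t ≠ p → t ≠ u → t ≠ v → w t = w' t) : OddP w := by
  -- period of `p` under `w'`
  obtain ⟨k0, hk0, hk0p⟩ := h p
  have hkpos : 0 < k0 := hk0.pos
  have hper : Function.IsPeriodicPt w' k0 p := by
    show (w')^[k0] p = p
    rw [← Perm.coe_pow]; exact hk0p
  set m := Function.minimalPeriod w' p with hm
  have hmdvd : m ∣ k0 := hper.minimalPeriod_dvd
  have hmodd : Odd m := Odd.of_dvd_nat hk0 hmdvd
  have hmpos : 0 < m := hmodd.pos
  have hmper : (w' ^ m) p = p := by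
    have := Function.iterate_minimalPeriod (f := w') (x := p)
    rw [← Perm.coe_pow] at this
    exact this
  have hne_u : ∀ i : ℕ, (w' ^ i) p ≠ u := by
    intro i hi
    have : (w' ^ i) u = u := pow_apply_of_fix hu i
    exact hpu ((w' ^ i).injective (hi.trans this.symm))
  have hne_v : ∀ i : ℕ, (w' ^ i) p ≠ v := by
    intro i hi
    have : (w' ^ i) v = v := pow_apply_of_fix hv i
    exact hpv ((w' ^ i).injective (hi.trans this.symm))
  have hne_p : ∀ i : ℕ, 0 < i → i < m → (w' ^ i) p ≠ p := by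
    intro i hi0 him hip
    have : Function.IsPeriodicPt w' i p := by
      show (w')^[i] p = p
      rw [← Perm.coe_pow]; exact hip
    have := Nat.le_of_dvd hi0 (this.minimalPeriod_dvd)
    omega
  -- main trajectory
  have htraj : ∀ i : ℕ, 1 ≤ i → i ≤ m → (w ^ (i + 2)) p = (w' ^ i) p := by
    intro i hi
    induction i, hi using Nat.le_induction with
    | base =>
      intro _
      have : (w ^ 3) p = w' p := by
        rw [pow_succ', pow_succ', pow_one]
        simp only [Perm.mul_apply]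
        rw [h1, h2, h3]
      simpa using this
    | succ n hn ih =>
      intro hle
      have ihh := ih (by omega)
      have : (w ^ (n + 1 + 2)) p = w ((w ^ (n + 2)) p) := by
        rw [show n + 1 + 2 = (n + 2) + 1 by ring, pow_succ', Perm.mul_apply]
      rw [this, ihh, pow_succ', Perm.mul_apply]
      exact hrest _ (hne_p n (by omega) (by omega)) (hne_u n) (hne_v n)
  have hret : (w ^ (m + 2)) p = p := by
    rw [htraj m (by omega) le_rfl, hmper]
  have hoddk : Odd (m + 2) := by
    exact hmodd.add_even (by norm_num)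
  -- any point of the `w`-orbit of `p` returns
  have horb : ∀ i : ℕ, (w ^ (m + 2)) ((w ^ i) p) = (w ^ i) p := by
    intro i
    have : (w ^ (m + 2)) ((w ^ i) p) = (w ^ i) ((w ^ (m + 2)) p) := by
      rw [← Perm.mul_apply, ← Perm.mul_apply, ← pow_add, ← pow_add, add_comm]
    rw [this, hret]
  intro a
  by_cases hau : a = u
  · subst hau
    refine ⟨m + 2, hoddk, ?_⟩
    have := horb 1
    rwa [pow_one, h1] at this
  by_cases hav : a = v
  · subst hav
    refine ⟨m + 2, hoddk, ?_⟩
    have := horb 2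
    rwa [pow_two, Perm.mul_apply, h1, h2] at this
  by_cases hin : ∃ i : ℕ, (w' ^ i) p = a
  · obtain ⟨i, hi⟩ := hin
    refine ⟨m + 2, hoddk, ?_⟩
    -- write i mod m
    have hmod : (w' ^ (i % m)) p = a := by
      rw [← hi]
      conv_rhs => rw [← Nat.mod_add_div i m, pow_add, pow_mul]
      rw [Perm.mul_apply]
      congr 1
      have : ((w' ^ m) ^ (i / m)) p = p := pow_apply_of_fix hmper _
      exact this.symm
    have hlt : i % m < m := Nat.mod_lt _ hmpos
    by_cases h0 : i % m = 0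
    · rw [h0, pow_zero] at hmod
      have : a = p := hmod.symm
      rw [this]; exact hret
    · have := htraj (i % m) (by omega) (by omega)
      have h2 := horb (i % m + 2)
      rwa [this, hmod] at h2
  · -- other orbit
    obtain ⟨k, hk, hka⟩ := h a
    refine ⟨k, hk, ?_⟩
    have hkpos : 0 < k := hk.pos
    -- the `w'`-orbit of `a` avoids `p u v`
    have hback : ∀ i : ℕ, ∃ j : ℕ, (w' ^ j) ((w' ^ i) a) = a := by
      intro i
      refine ⟨k * i - i, ?_⟩
      have hle : i ≤ k * i := Nat.le_mul_of_pos_left i hkpos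
      rw [← Perm.mul_apply, ← pow_add, Nat.sub_add_cancel hle, pow_mul]
      exact pow_apply_of_fix hka _
    have havoid : ∀ i : ℕ, (w' ^ i) a ≠ p ∧ (w' ^ i) a ≠ u ∧ (w' ^ i) a ≠ v := by
      intro i
      obtain ⟨j, hj⟩ := hback i
      refine ⟨fun he => hin ⟨j, ?_⟩, fun he => hau ?_, fun he => hav ?_⟩
      · rw [← he]; exact hj
      · rw [he, pow_apply_of_fix hu] at hj; exact hj.symm
      · rw [he, pow_apply_of_fix hv] at hj; exact hj.symm
    have hsame : ∀ i : ℕ, (w ^ i) a = (w' ^ i) a := by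
      intro i
      induction i with
      | zero => simp
      | succ n ih =>
        rw [pow_succ', Perm.mul_apply, ih, pow_succ' w', Perm.mul_apply]
        obtain ⟨h1, h2, h3⟩ := havoid n
        exact hrest _ h1 h2 h3
    rw [hsame]; exact hka

/-- A 3-cycle written as a product of swaps. -/
lemma cyc3_apply {p u v : α} (hpu : p ≠ u) (hpv : p ≠ v) (huv : u ≠ v) :
    (swap p u * swap u v) p = u ∧ (swap p u * swap u v) u = v ∧ (swap p u * swap u v) v = p ∧
      ∀ t, t ≠ p → t ≠ u → t ≠ v → (swap p u * swap u v) t = t := by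
  refine ⟨?_, ?_, ?_, ?_⟩
  · simp [Perm.mul_apply, swap_apply_of_ne_of_ne hpu hpv]
  · simp [Perm.mul_apply, swap_apply_of_ne_of_ne (Ne.symm hpv) (Ne.symm huv)]
  · simp [Perm.mul_apply]
  · intro t h1 h2 h3
    simp [Perm.mul_apply, swap_apply_of_ne_of_ne h2 h3, swap_apply_of_ne_of_ne h1 h2]

/-- Two insertions at different or equal points: general step through an intermediate. -/
lemma OddP.ins_two {w' w : Perm α} (h : OddP w') {p u v q r s : α}
    (hpu : p ≠ u) (hpv : p ≠ v) (huv : u ≠ v)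
    (hqr : q ≠ r) (hqs : q ≠ s) (hrs : r ≠ s)
    (hru : r ≠ u) (hrv : r ≠ v) (hrp : r ≠ p) (hsu : s ≠ u) (hsv : s ≠ v) (hsp : s ≠ p)
    (hqu : q ≠ u) (hqv : q ≠ v) (hqp : q ≠ p)
    (hu : w' u = u) (hv : w' v = v) (hr : w' r = r) (hs : w' s = s)
    (h1 : w p = u) (h2 : w u = v) (h3 : w v = w' p)
    (h4 : w q = r) (h5 : w r = s) (h6 : w s = w' q)
    (hrest : ∀ t, t ≠ p → t ≠ u → t ≠ v → t ≠ q → t ≠ r → t ≠ s → w t = w' t) : OddP w := by
  obtain ⟨c1, c2, c3, c4⟩ := cyc3_apply hpu hpv huv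
  set c := swap p u * swap u v with hc
  have hw1 : OddP (w' * c) := by
    refine h.ins hpu hpv hu hv ?_ ?_ ?_ ?_
    · rw [Perm.mul_apply, c1, hu]
    · rw [Perm.mul_apply, c2, hv]
    · rw [Perm.mul_apply, c3]
    · intro t h1 h2 h3
      rw [Perm.mul_apply, c4 t h1 h2 h3]
  refine hw1.ins hqr hqs ?_ ?_ ?_ ?_ ?_ ?_
  · rw [Perm.mul_apply, c4 r hrp hru hrv, hr]
  · rw [Perm.mul_apply, c4 s hsp hsu hsv, hs]
  · exact h4
  · exact h5
  · rw [Perm.mul_apply, c4 q hqp hqu hqv, h6]
  · intro t t1 t2 t3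
    by_cases tp : t = p
    · subst tp; rw [Perm.mul_apply, c1, hu, h1]
    by_cases tu : t = u
    · subst tu; rw [Perm.mul_apply, c2, hv, h2]
    by_cases tv : t = v
    · subst tv; rw [Perm.mul_apply, c3, h3]
    rw [Perm.mul_apply, c4 t tp tu tv]
    exact hrest t tp tu tv t1 t2 t3

/-- Two insertions at the same point: `p → u → v → r → s → w' p`. -/
lemma OddP.ins_same {w' w : Perm α} (h : OddP w') {p u v r s : α}
    (hpu : p ≠ u) (hpv : p ≠ v) (huv : u ≠ v)
    (hpr : p ≠ r) (hps : p ≠ s) (hrs : r ≠ s)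
    (hru : r ≠ u) (hrv : r ≠ v) (hsu : s ≠ u) (hsv : s ≠ v)
    (hu : w' u = u) (hv : w' v = v) (hr : w' r = r) (hs : w' s = s)
    (h1 : w p = u) (h2 : w u = v) (h3 : w v = r) (h4 : w r = s) (h5 : w s = w' p)
    (hrest : ∀ t, t ≠ p → t ≠ u → t ≠ v → t ≠ r → t ≠ s → w t = w' t) : OddP w := by
  obtain ⟨c1, c2, c3, c4⟩ := cyc3_apply hpr hps hrs
  set c := swap p r * swap r s with hc
  have hw1 : OddP (w' * c) := by
    refine h.ins hpr hps hr hs ?_ ?_ ?_ ?_
    · rw [Perm.mul_apply, c1, hr]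
    · rw [Perm.mul_apply, c2, hs]
    · rw [Perm.mul_apply, c3]
    · intro t h1 h2 h3
      rw [Perm.mul_apply, c4 t h1 h2 h3]
  refine hw1.ins hpu hpv ?_ ?_ h1 h2 ?_ ?_
  · rw [Perm.mul_apply, c4 u hpu.symm hru.symm hsu.symm, hu]
  · rw [Perm.mul_apply, c4 v hpv.symm hrv.symm hsv.symm, hv]
  · rw [Perm.mul_apply, c1, hr, h3]
  · intro t t1 t2 t3
    by_cases tr : t = r
    · subst tr; rw [Perm.mul_apply, c2, hs, h4]
    by_cases ts : t = s
    · subst ts; rw [Perm.mul_apply, c3, h5]
    rw [Perm.mul_apply, c4 t t1 tr ts]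
    exact hrest t t1 t2 t3 tr ts

/-- Block lemma. -/
lemma OddP.block {w' w : Perm α} (h : OddP w') (T : Finset α) (hfix : ∀ t ∈ T, w' t = t)
    (hout : ∀ t, t ∉ T → w t = w' t) (hin : ∀ t ∈ T, ∃ k : ℕ, Odd k ∧ (w ^ k) t = t) :
    OddP w := by
  intro a
  by_cases ha : a ∈ T
  · exact hin a ha
  obtain ⟨k, hk, hka⟩ := h a
  refine ⟨k, hk, ?_⟩
  have havoid : ∀ i : ℕ, (w' ^ i) a ∉ T := by
    intro i hi
    apply ha
    have : (w' ^ i) ((w' ^ i) a) = (w' ^ i) a := pow_apply_of_fix (hfix _ hi) i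
    have h2 := (w' ^ i).injective this
    rwa [h2] at hi
  have hsame : ∀ i : ℕ, (w ^ i) a = (w' ^ i) a := by
    intro i
    induction i with
    | zero => simp
    | succ n ih =>
      rw [pow_succ', Perm.mul_apply, ih, pow_succ' w', Perm.mul_apply]
      exact hout _ (havoid n)
  rw [hsame]; exact hka

lemma cyc3_pts {w : Perm α} {a b c : α} (h1 : w a = b) (h2 : w b = c) (h3 : w c = a) :
    (w ^ 3) a = a ∧ (w ^ 3) b = b ∧ (w ^ 3) c = c := by
  have e : ∀ t, (w ^ 3) t = w (w (w t)) := fun t => by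
    simp [pow_succ, Perm.mul_apply]
  simp [e, h1, h2, h3]

lemma cyc5_pts {w : Perm α} {a b c d e : α} (h1 : w a = b) (h2 : w b = c) (h3 : w c = d)
    (h4 : w d = e) (h5 : w e = a) :
    (w ^ 5) a = a ∧ (w ^ 5) b = b ∧ (w ^ 5) c = c ∧ (w ^ 5) d = d ∧ (w ^ 5) e = e := by
  have e' : ∀ t, (w ^ 5) t = w (w (w (w (w t)))) := fun t => by
    simp [pow_succ, Perm.mul_apply]
  simp [e', h1, h2, h3, h4, h5]

lemma odd3 : Odd 3 := by decide
lemma odd5 : Odd 5 := by decide

/-! ### Edges -/

/-- Involution predicate. -/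
def Invol (x : Perm α) : Prop := ∀ v, x (x v) = v

/-- Add an edge. -/
lemma add_edge {z : Perm α} (hz : Invol z) {u v : α} (huv : u ≠ v) (hu : z u = u) (hv : z v = v) :
    ∃ z₁ : Perm α, Invol z₁ ∧ z₁ u = v ∧ z₁ v = u ∧ (∀ t, t ≠ u → t ≠ v → z₁ t = z t) ∧
      z₁.support.card = z.support.card + 2 := by
  have hother : ∀ t, t ≠ u → t ≠ v → (swap u v * z) t = z t := by
    intro t h1 h2
    rw [Perm.mul_apply]
    apply swap_apply_of_ne_of_ne
    · intro h; apply h1; apply z.injective; rw [h, hu]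
    · intro h; apply h2; apply z.injective; rw [h, hv]
  have e1 : (swap u v * z) u = v := by rw [Perm.mul_apply, hu, swap_apply_left]
  have e2 : (swap u v * z) v = u := by rw [Perm.mul_apply, hv, swap_apply_right]
  refine ⟨swap u v * z, ?_, e1, e2, hother, ?_⟩
  · intro t
    by_cases h1 : t = u
    · subst h1; rw [e1, e2]
    by_cases h2 : t = v
    · subst h2; rw [e2, e1]
    rw [hother t h1 h2]
    rw [hother (z t) ?_ ?_, hz t]
    · intro h; apply h1; apply z.injective; rw [h, hu]
    · intro h; apply h2; apply z.injective; rw [h, hv]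
  · have hd : Perm.Disjoint (swap u v) z := by
      intro t
      by_cases h1 : t = u
      · subst h1; right; exact hu
      by_cases h2 : t = v
      · subst h2; right; exact hv
      left; exact swap_apply_of_ne_of_ne h1 h2
    rw [hd.card_support_mul, card_support_swap huv]
    omega

/-- Delete an edge. -/
lemma del_edge {x : Perm α} (hx : Invol x) {u v : α} (huv : u ≠ v) (hu : x u = v) :
    ∃ x₁ : Perm α, Invol x₁ ∧ x₁ u = u ∧ x₁ v = v ∧ (∀ t, t ≠ u → t ≠ v → x₁ t = x t) ∧
      x.support.card = x₁.support.card + 2 := by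
  have hv : x v = u := by rw [← hu, hx]
  have hother : ∀ t, t ≠ u → t ≠ v → (swap u v * x) t = x t := by
    intro t h1 h2
    rw [Perm.mul_apply]
    apply swap_apply_of_ne_of_ne
    · intro h; apply h2; rw [← hx t, h, hu]
    · intro h; apply h1; rw [← hx t, h, hv]
  have e1 : (swap u v * x) u = u := by rw [Perm.mul_apply, hu, swap_apply_right]
  have e2 : (swap u v * x) v = v := by rw [Perm.mul_apply, hv, swap_apply_left]
  have hinv : Invol (swap u v * x) := by
    intro t
    by_cases h1 : t = u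
    · subst h1; rw [e1, e1]
    by_cases h2 : t = v
    · subst h2; rw [e2, e2]
    rw [hother t h1 h2]
    rw [hother (x t) ?_ ?_, hx t]
    · intro h; apply h2; rw [← hx t, h, hu]
    · intro h; apply h1; rw [← hx t, h, hv]
  refine ⟨swap u v * x, hinv, e1, e2, hother, ?_⟩
  have hd : Perm.Disjoint (swap u v) (swap u v * x) := by
    intro t
    by_cases h1 : t = u
    · subst h1; right; exact e1
    by_cases h2 : t = v
    · subst h2; right; exact e2
    left; exact swap_apply_of_ne_of_ne h1 h2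
  have hm : swap u v * (swap u v * x) = x := by
    rw [← mul_assoc, swap_mul_self, one_mul]
  have := hd.card_support_mul
  rw [hm, card_support_swap huv] at this
  omega

end Cfsg.Agent.Lib.OddSym
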