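import Cfsg.Agent.Lib.OddSym.Pair

set_option autoImplicit false
set_option linter.unusedSectionVars false
set_option linter.unusedVariables false

namespace Cfsg.Agent.Lib.OddSym

open Equiv Equiv.Perm

variable {α : Type*} [DecidableEq α] [Fintype α]

lemma invol_one : Invol (1 : Perm α) := fun _ => rfl

lemma four_edges {p1 q1 p2 q2 p3 q3 p4 q4 : α}
    (h12 : p1 ≠ q1) (h13 : p1 ≠ p2) (h14 : p1 ≠ q2) (h15 : p1 ≠ p3) (h16 : p1 ≠ q3) (h17 : p1 ≠ p4)
    (h18 : p1 ≠ q4) (h23 : q1 ≠ p2) (h24 : q1 ≠ q2) (h25 : q1 ≠ p3) (h26 : q1 ≠ q3) (h27 : q1 ≠ p4)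
    (h28 : q1 ≠ q4) (h34 : p2 ≠ q2) (h35 : p2 ≠ p3) (h36 : p2 ≠ q3) (h37 : p2 ≠ p4) (h38 : p2 ≠ q4)
    (h45 : q2 ≠ p3) (h46 : q2 ≠ q3) (h47 : q2 ≠ p4) (h48 : q2 ≠ q4) (h56 : p3 ≠ q3) (h57 : p3 ≠ p4)
    (h58 : p3 ≠ q4) (h67 : q3 ≠ p4) (h68 : q3 ≠ q4) (h78 : p4 ≠ q4) :
    ∃ z : Perm α, Invol z ∧ z p1 = q1 ∧ z q1 = p1 ∧ z p2 = q2 ∧ z q2 = p2 ∧ z p3 = q3 ∧ z q3 = p3 ∧
      z p4 = q4 ∧ z q4 = p4 ∧
      (∀ t, t ≠ p1 → t ≠ q1 → t ≠ p2 → t ≠ q2 → t ≠ p3 → t ≠ q3 → t ≠ p4 → t ≠ q4 → z t = t) ∧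
      z.support.card = 8 := by
  obtain ⟨z1, hz1, a1, a2, ao, ac⟩ := add_edge (invol_one (α := α)) h12 rfl rfl
  obtain ⟨z2, hz2, b1, b2, bo, bc⟩ := add_edge hz1 h34
    (by rw [ao _ h13.symm h23.symm]; rfl) (by rw [ao _ h14.symm h24.symm]; rfl)
  obtain ⟨z3, hz3, c1, c2, co, cc⟩ := add_edge hz2 h56
    (by rw [bo _ h35.symm h45.symm, ao _ h15.symm h25.symm]; rfl)
    (by rw [bo _ h36.symm h46.symm, ao _ h16.symm h26.symm]; rfl)
  obtain ⟨z, hz, d1, d2, d_o, dc⟩ := add_edge hz3 h78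
    (by rw [co _ h57.symm h67.symm, bo _ h37.symm h47.symm, ao _ h17.symm h27.symm]; rfl)
    (by rw [co _ h58.symm h68.symm, bo _ h38.symm h48.symm, ao _ h18.symm h28.symm]; rfl)
  refine ⟨z, hz, ?_, ?_, ?_, ?_, ?_, ?_, d1, d2, ?_, ?_⟩
  · rw [d_o _ h17 h18, co _ h15 h16, bo _ h13 h14, a1]
  · rw [d_o _ h27 h28, co _ h25 h26, bo _ h23 h24, a2]
  · rw [d_o _ h37 h38, co _ h35 h36, b1]
  · rw [d_o _ h47 h48, co _ h45 h46, b2]
  · rw [d_o _ h57 h58, c1]
  · rw [d_o _ h67 h68, c2]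
  · intro t t1 t2 t3 t4 t5 t6 t7 t8
    rw [d_o _ t7 t8, co _ t5 t6, bo _ t3 t4, ao _ t1 t2]; rfl
  · have : (1 : Perm α).support.card = 0 := by simp
    omega

lemma oddP_of_pts {w : Perm α} (T : Finset α) (hT : ∀ t ∈ T, ∃ k : ℕ, Odd k ∧ (w ^ k) t = t)
    (hout : ∀ t, t ∉ T → w t = t) : OddP w := by
  intro t
  by_cases h : t ∈ T
  · exact hT t h
  · exact fix1 (hout t h)

lemma C4.rev {x y : Perm α} (hx : Invol x) (hy : Invol y) {a b c d : α} (h : C4 x y a b c d) :
    x b = a ∧ x d = c ∧ y c = b ∧ y a = d := by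
  obtain ⟨h1, h2, h3, h4, h5, h6, h7, h8, h9, h10⟩ := h
  refine ⟨by rw [← h7, hx], by rw [← h9, hx], by rw [← h8, hy], by rw [← h10, hy]⟩

lemma C4.rot1 {x y : Perm α} (hx : Invol x) (hy : Invol y) {a b c d : α} (h : C4 x y a b c d) :
    C4 x y b a d c := by
  have r := h.rev hx hy
  obtain ⟨h1, h2, h3, h4, h5, h6, h7, h8, h9, h10⟩ := h
  exact ⟨h1.symm, h5, h4, h3, h2, h6.symm, r.1, r.2.2.2, r.2.1, r.2.2.1⟩

lemma C4.rot2 {x y : Perm α} {a b c d : α} (h : C4 x y a b c d) : C4 x y c d a b := by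
  obtain ⟨h1, h2, h3, h4, h5, h6, h7, h8, h9, h10⟩ := h
  exact ⟨h6, h2.symm, h4.symm, h3.symm, h5.symm, h1, h9, h10, h7, h8⟩

lemma Bad.card_eq {S : Finset α} {x y : Perm α} (hc : Cfg S x y) (h : Bad S x y) :
    x.support.card = 4 := by
  obtain ⟨a, b, c, d, h4, rfl⟩ := h
  have r := h4.rev hc.hx hc.hy
  obtain ⟨h1, h2, h3, h5, h6, h7, h8, h9, h10, h11⟩ := h4
  have : x.support = {a, b, c, d} := by
    ext t
    rw [Perm.mem_support]
    constructor
    · intro ht
      by_contra h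
      exact ht (hc.fx t h)
    · intro ht
      simp only [Finset.mem_insert, Finset.mem_singleton] at ht
      rcases ht with rfl | rfl | rfl | rfl
      · rw [h8]; exact h1.symm
      · rw [r.1]; exact h1
      · rw [h10]; exact h7.symm
      · rw [r.2.1]; exact h7
  rw [this]
  rw [Finset.card_insert_of_notMem, Finset.card_insert_of_notMem, Finset.card_insert_of_notMem,
    Finset.card_singleton]
  · simpa using h7
  · simp [h5, h6]
  · simp [h1, h2, h3]

/-- Insert a 4-cycle block. -/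
lemma red_c4 {S : Finset α} {x y : Perm α} (hc : Cfg S x y)
    (IH : ∀ (S' : Finset α) (x' y' : Perm α), S'.card < S.card → Cfg S' x' y' →
      Sol S' x' y' ∨ Bad S' x' y')
    {a b c d : α} (h4 : C4 x y a b c d) : Sol S x y ∨ Bad S x y := by
  have r := h4.rev hc.hx hc.hy
  obtain ⟨xb, xd, yc, ya⟩ := r
  have h4' := h4
  obtain ⟨ab, ac, ad, bc, bd, cd, xa, yb, xc, yd⟩ := h4
  have ma : a ∈ S := hc.mem_of_x (by rw [xa]; exact ab.symm)
  have mb : b ∈ S := hc.mem_of_x (by rw [xb]; exact ab)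
  have mc : c ∈ S := hc.mem_of_x (by rw [xc]; exact cd.symm)
  have md : d ∈ S := hc.mem_of_x (by rw [xd]; exact cd)
  obtain ⟨x1, hx1, xa1, xb1, xo1, xc1⟩ := del_edge hc.hx ab xa
  obtain ⟨x', hx', xa2, xb2, xo2, xc2⟩ := del_edge hx1 cd (by rw [xo1 _ ac.symm bc.symm, xc])
  obtain ⟨y1, hy1, ya1, yb1, yo1, yc1⟩ := del_edge hc.hy bc yb
  obtain ⟨y', hy', ya2, yb2, yo2, yc2⟩ := del_edge hy1 ad.symm (by rw [yo1 _ bd.symm cd.symm, yd])
  have hT : ∀ t, t ∈ ({a, b, c, d} : Finset α) ↔ (t = a ∨ t = b ∨ t = c ∨ t = d) := by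
    intro t; simp
  have xTa : x' a = a := by rw [xo2 _ ac ad]; exact xa1
  have xTb : x' b = b := by rw [xo2 _ bc bd]; exact xb1
  have yTb : y' b = b := by rw [yo2 _ bd ab.symm]; exact ya1
  have yTc : y' c = c := by rw [yo2 _ cd ac.symm]; exact yb1
  have xout : ∀ t, t ≠ a → t ≠ b → t ≠ c → t ≠ d → x' t = x t := by
    intro t n1 n2 n3 n4
    rw [xo2 _ n3 n4, xo1 _ n1 n2]
  have yout : ∀ t, t ≠ a → t ≠ b → t ≠ c → t ≠ d → y' t = y t := by
    intro t n1 n2 n3 n4
    rw [yo2 _ n4 n1, yo1 _ n2 n3]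
  have hsub : ({a, b, c, d} : Finset α) ⊆ S := by
    intro t ht; rw [hT] at ht
    rcases ht with rfl | rfl | rfl | rfl <;> assumption
  have hlt : (S \ {a, b, c, d}).card < S.card := by
    apply Finset.card_lt_card
    refine ⟨Finset.sdiff_subset, ?_⟩
    intro h
    have := h ma
    simp at this
  have card := hc.card
  have hcfg : Cfg (S \ {a, b, c, d}) x' y' := by
    refine ⟨hx', hy', ?_, ?_, by omega⟩
    · intro t ht
      by_cases h : t = a
      · subst h; exact xTa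
      by_cases h2 : t = b
      · subst h2; exact xTb
      by_cases h3 : t = c
      · subst h3; exact xa2
      by_cases h4 : t = d
      · subst h4; exact xb2
      rw [xout t h h2 h3 h4]
      apply hc.fx
      intro h5
      apply ht
      rw [Finset.mem_sdiff]
      refine ⟨h5, ?_⟩
      rw [hT]; tauto
    · intro t ht
      by_cases h : t = a
      · subst h; exact yb2
      by_cases h2 : t = b
      · subst h2; exact yTb
      by_cases h3 : t = c
      · subst h3; exact yTc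
      by_cases h4 : t = d
      · subst h4; exact ya2
      rw [yout t h h2 h3 h4]
      apply hc.fy
      intro h5
      apply ht
      rw [Finset.mem_sdiff]
      refine ⟨h5, ?_⟩
      rw [hT]; tauto
  by_cases hemp : (S \ {a, b, c, d}) = ∅
  · right
    refine ⟨a, b, c, d, h4', ?_⟩
    apply Finset.Subset.antisymm _ hsub
    exact Finset.sdiff_eq_empty_iff_subset.1 hemp
  left
  obtain ⟨w0, hw0⟩ := Finset.nonempty_iff_ne_empty.2 hemp
  have hw0S : w0 ∈ S := (Finset.mem_sdiff.1 hw0).1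
  have hw0T : ¬ (w0 = a ∨ w0 = b ∨ w0 = c ∨ w0 = d) := by
    have := (Finset.mem_sdiff.1 hw0).2
    rwa [hT] at this
  have wa : w0 ≠ a := fun h => hw0T (Or.inl h)
  have wb : w0 ≠ b := fun h => hw0T (Or.inr (Or.inl h))
  have wc : w0 ≠ c := fun h => hw0T (Or.inr (Or.inr (Or.inl h)))
  have wd : w0 ≠ d := fun h => hw0T (Or.inr (Or.inr (Or.inr h)))
  have memS : ∀ t, t ∉ S → t ≠ a ∧ t ≠ b ∧ t ≠ c ∧ t ≠ d ∧ t ≠ w0 ∧ t ∉ S \ {a, b, c, d} := by
    intro t ht
    refine ⟨fun h => ht (h ▸ ma), fun h => ht (h ▸ mb), fun h => ht (h ▸ mc), fun h => ht (h ▸ md),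
      fun h => ht (h ▸ hw0S), fun h => ht (Finset.mem_sdiff.1 h).1⟩
  rcases IH _ _ _ hlt hcfg with hsol | hbad
  · obtain ⟨z', hz', hzf, hzc, hoddx, hoddy⟩ := hsol
    have zTa : z' a = a := hzf a (by simp)
    have zTb : z' b = b := hzf b (by simp)
    have zTc : z' c = c := hzf c (by simp)
    have zTd : z' d = d := hzf d (by simp)
    have zneT : ∀ t, t ≠ a → t ≠ b → t ≠ c → t ≠ d →
        z' t ≠ a ∧ z' t ≠ b ∧ z' t ≠ c ∧ z' t ≠ d := by
      intro t n1 n2 n3 n4
      refine ⟨fun h => n1 (z'.injective (h.trans zTa.symm)), fun h => n2 (z'.injective (h.trans zTb.symm)),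
        fun h => n3 (z'.injective (h.trans zTc.symm)), fun h => n4 (z'.injective (h.trans zTd.symm))⟩
    have wxa : (x' * z') a = a := by rw [Perm.mul_apply, zTa, xTa]
    have wxb : (x' * z') b = b := by rw [Perm.mul_apply, zTb, xTb]
    have wxc : (x' * z') c = c := by rw [Perm.mul_apply, zTc, xa2]
    have wxd : (x' * z') d = d := by rw [Perm.mul_apply, zTd, xb2]
    have wya : (y' * z') a = a := by rw [Perm.mul_apply, zTa, yb2]
    have wyb : (y' * z') b = b := by rw [Perm.mul_apply, zTb, yTb]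
    have wyc : (y' * z') c = c := by rw [Perm.mul_apply, zTc, yTc]
    have wyd : (y' * z') d = d := by rw [Perm.mul_apply, zTd, ya2]
    by_cases hfix : z' w0 = w0
    · -- fixed point
      obtain ⟨z1, hz1, p1, p2, po, pc⟩ := add_edge hz' wa hfix zTa
      obtain ⟨z, hz, q1, q2, qo, qc⟩ := add_edge hz1 bd
        (by rw [po _ wb.symm ab.symm]; exact zTb) (by rw [po _ wd.symm ad.symm]; exact zTd)
      have zv : ∀ t, t ≠ w0 → t ≠ a → t ≠ b → t ≠ d → z t = z' t := by
        intro t n1 n2 n3 n4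
        rw [qo _ n3 n4, po _ n1 n2]
      have zw0 : z w0 = a := by rw [qo _ wb wd, p1]
      have za : z a = w0 := by rw [qo _ ab ad, p2]
      have zc : z c = c := by rw [zv _ wc.symm ac.symm bc.symm cd, zTc]
      refine ⟨z, hz, ?_, by omega, ?_, ?_⟩
      · intro t ht
        obtain ⟨t1, t2, t3, t4, t5, t6⟩ := memS t ht
        rw [zv t t5 t1 t2 t4]
        exact hzf t t6
      · -- `x * z`
        refine hoddx.ins_same (p := w0) (u := b) (v := c) (r := d) (s := a) wb wc bc wd wa ad.symm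
          bd.symm cd.symm ab ac wxb wxc wxd wxa ?_ ?_ ?_ ?_ ?_ ?_
        · rw [Perm.mul_apply, zw0, xa]
        · rw [Perm.mul_apply, q1, xd]
        · rw [Perm.mul_apply, zc, xc]
        · rw [Perm.mul_apply, q2, xb]
        · rw [Perm.mul_apply, za, Perm.mul_apply, hfix, xout _ wa wb wc wd]
        · intro t n1 n2 n3 n4 n5
          have e := zv t n1 n5 n2 n4
          obtain ⟨s1, s2, s3, s4⟩ := zneT t n5 n2 n3 n4
          rw [Perm.mul_apply, Perm.mul_apply, e, xout _ s1 s2 s3 s4]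
      · -- `y * z`
        refine hoddy.ins_same (p := w0) (u := d) (v := c) (r := b) (s := a) wd wc cd.symm wb wa ab.symm
          bd bc ad ac wyd wyc wyb wya ?_ ?_ ?_ ?_ ?_ ?_
        · rw [Perm.mul_apply, zw0, ya]
        · rw [Perm.mul_apply, q2, yb]
        · rw [Perm.mul_apply, zc, yc]
        · rw [Perm.mul_apply, q1, yd]
        · rw [Perm.mul_apply, za, Perm.mul_apply, hfix, yout _ wa wb wc wd]
        · intro t n1 n2 n3 n4 n5
          have e := zv t n1 n5 n4 n2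
          obtain ⟨s1, s2, s3, s4⟩ := zneT t n5 n4 n3 n2
          rw [Perm.mul_apply, Perm.mul_apply, e, yout _ s1 s2 s3 s4]
    · -- `w0` lies on an edge of `z'`
      set w1 := z' w0 with hw1
      have hw01 : w0 ≠ w1 := fun h => hfix h.symm
      have zw1 : z' w1 = w0 := hz' w0
      have w1a : w1 ≠ a := fun h => wa (by rw [← zw1, h, zTa])
      have w1b : w1 ≠ b := fun h => wb (by rw [← zw1, h, zTb])
      have w1c : w1 ≠ c := fun h => wc (by rw [← zw1, h, zTc])
      have w1d : w1 ≠ d := fun h => wd (by rw [← zw1, h, zTd])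
      obtain ⟨z0, hz0, r1, r2, ro, rc⟩ := del_edge hz' hw01 rfl
      have z0a : z0 a = a := by rw [ro _ wa.symm w1a.symm, zTa]
      have z0b : z0 b = b := by rw [ro _ wb.symm w1b.symm, zTb]
      have z0c : z0 c = c := by rw [ro _ wc.symm w1c.symm, zTc]
      have z0d : z0 d = d := by rw [ro _ wd.symm w1d.symm, zTd]
      obtain ⟨z1, hz1, p1, p2, po, pc⟩ := add_edge hz0 wa r1 z0a
      obtain ⟨z2, hz2, q1, q2, qo, qc⟩ := add_edge hz1 bd
        (by rw [po _ wb.symm ab.symm]; exact z0b) (by rw [po _ wd.symm ad.symm]; exact z0d)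
      obtain ⟨z, hz, u1, u2, uo, uc⟩ := add_edge hz2 w1c.symm
        (by rw [qo _ bc.symm cd, po _ wc.symm ac.symm]; exact z0c)
        (by rw [qo _ w1b w1d, po _ hw01.symm w1a]; exact r2)
      have zv : ∀ t, t ≠ w0 → t ≠ w1 → t ≠ a → t ≠ b → t ≠ c → t ≠ d → z t = z' t := by
        intro t n1 n2 n3 n4 n5 n6
        rw [uo _ n5 n2, qo _ n4 n6, po _ n1 n3, ro _ n1 n2]
      have zw0 : z w0 = a := by rw [uo _ wc hw01, qo _ wb wd, p1]
      have za : z a = w0 := by rw [uo _ ac w1a.symm, qo _ ab ad, p2]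
      have zb : z b = d := by rw [uo _ bc w1b.symm, q1]
      have zd : z d = b := by rw [uo _ cd.symm w1d.symm, q2]
      have hne : ∀ t, t ≠ w0 → t ≠ w1 → z' t ≠ w0 ∧ z' t ≠ w1 := by
        intro t n1 n2
        refine ⟨fun h => n2 (z'.injective (h.trans zw1.symm)), fun h => n1 (z'.injective h)⟩
      refine ⟨z, hz, ?_, by omega, ?_, ?_⟩
      · intro t ht
        obtain ⟨t1, t2, t3, t4, t5, t6⟩ := memS t ht
        have t7 : z' t = t := hzf t t6
        have t8 : t ≠ w1 := by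
          intro h
          rw [h, zw1] at t7
          exact hw01 t7
        rw [zv t t5 t8 t1 t2 t3 t4, t7]
      · -- `x * z`
        refine hoddx.ins_two (p := w0) (u := b) (v := c) (q := w1) (r := d) (s := a)
          wb wc bc w1d w1a ad.symm bd.symm cd.symm wd.symm ab ac wa.symm w1b w1c hw01.symm
          wxb wxc wxd wxa ?_ ?_ ?_ ?_ ?_ ?_ ?_
        · rw [Perm.mul_apply, zw0, xa]
        · rw [Perm.mul_apply, zb, xd]
        · rw [Perm.mul_apply, u1, Perm.mul_apply, xout _ w1a w1b w1c w1d]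
        · rw [Perm.mul_apply, u2, xc]
        · rw [Perm.mul_apply, zd, xb]
        · rw [Perm.mul_apply, za, Perm.mul_apply, zw1, xout _ wa wb wc wd]
        · intro t n1 n2 n3 n4 n5 n6
          have e := zv t n1 n4 n6 n2 n3 n5
          obtain ⟨s1, s2, s3, s4⟩ := zneT t n6 n2 n3 n5
          rw [Perm.mul_apply, Perm.mul_apply, e, xout _ s1 s2 s3 s4]
      · -- `y * z`
        refine hoddy.ins_two (p := w0) (u := d) (v := c) (q := w1) (r := b) (s := a)
          wd wc cd.symm w1b w1a ab.symm bd bc wb.symm ad ac wa.symm w1d w1c hw01.symm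
          wyd wyc wyb wya ?_ ?_ ?_ ?_ ?_ ?_ ?_
        · rw [Perm.mul_apply, zw0, ya]
        · rw [Perm.mul_apply, zd, yb]
        · rw [Perm.mul_apply, u1, Perm.mul_apply, yout _ w1a w1b w1c w1d]
        · rw [Perm.mul_apply, u2, yc]
        · rw [Perm.mul_apply, zb, yd]
        · rw [Perm.mul_apply, za, Perm.mul_apply, zw1, yout _ wa wb wc wd]
        · intro t n1 n2 n3 n4 n5 n6
          have e := zv t n1 n4 n6 n5 n3 n2
          obtain ⟨s1, s2, s3, s4⟩ := zneT t n6 n5 n3 n2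
          rw [Perm.mul_apply, Perm.mul_apply, e, yout _ s1 s2 s3 s4]
  · -- two `C4` blocks
    have hcardx' := Bad.card_eq hcfg hbad
    obtain ⟨a1, b1, c1, d1, h41, hS⟩ := hbad
    have r1 := h41.rev hcfg.hx hcfg.hy
    obtain ⟨xb1', xd1', yc1', ya1'⟩ := r1
    obtain ⟨ab1, ac1, ad1, bc1, bd1, cd1, xa1', yb1', xc1', yd1'⟩ := h41
    have hm : ∀ t, (t = a1 ∨ t = b1 ∨ t = c1 ∨ t = d1) → t ∈ S ∧ t ≠ a ∧ t ≠ b ∧ t ≠ c ∧ t ≠ d := by
      intro t ht
      have h1 : t ∈ S \ {a, b, c, d} := by rw [hS]; simpa using ht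
      rw [Finset.mem_sdiff, hT] at h1
      obtain ⟨h2, h3⟩ := h1
      simp only [not_or] at h3
      exact ⟨h2, h3.1, h3.2.1, h3.2.2.1, h3.2.2.2⟩
    obtain ⟨-, a1a, a1b, a1c, a1d⟩ := hm a1 (by simp)
    obtain ⟨-, b1a, b1b, b1c, b1d⟩ := hm b1 (by simp)
    obtain ⟨-, c1a, c1b, c1c, c1d⟩ := hm c1 (by simp)
    obtain ⟨-, d1a, d1b, d1c, d1d⟩ := hm d1 (by simp)
    have xa1 : x a1 = b1 := by rw [← xout _ a1a a1b a1c a1d]; exact xa1'
    have xb1'' : x b1 = a1 := by rw [← xout _ b1a b1b b1c b1d]; exact xb1'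
    have xc1'' : x c1 = d1 := by rw [← xout _ c1a c1b c1c c1d]; exact xc1'
    have xd1'' : x d1 = c1 := by rw [← xout _ d1a d1b d1c d1d]; exact xd1'
    have ya1'' : y a1 = d1 := by rw [← yout _ a1a a1b a1c a1d]; exact ya1'
    have yb1'' : y b1 = c1 := by rw [← yout _ b1a b1b b1c b1d]; exact yb1'
    have yc1'' : y c1 = b1 := by rw [← yout _ c1a c1b c1c c1d]; exact yc1'
    have yd1'' : y d1 = a1 := by rw [← yout _ d1a d1b d1c d1d]; exact yd1'
    -- edges (a,b) (a1,d1) (d,b1) (c,c1)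
    obtain ⟨z, hz, e1, e2, e3, e4, e5, e6, e7, e8, eo, ec⟩ := four_edges (α := α)
      (p1 := a) (q1 := b) (p2 := a1) (q2 := d1) (p3 := d) (q3 := b1) (p4 := c) (q4 := c1)
      ab a1a.symm d1a.symm ad b1a.symm ac c1a.symm a1b.symm d1b.symm bd b1b.symm bc c1b.symm
      ad1 a1d ab1 a1c ac1 d1d bd1.symm d1c cd1.symm b1d.symm cd.symm c1d.symm b1c bc1 c1c.symm
    have hout : ∀ t, t ∉ ({a, b, c, d, a1, b1, c1, d1} : Finset α) → t ∉ S := by
      intro t ht h
      apply ht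
      by_cases h2 : t ∈ ({a, b, c, d} : Finset α)
      · rw [hT] at h2
        simp only [Finset.mem_insert, Finset.mem_singleton]
        rcases h2 with h2 | h2 | h2 | h2
        · exact Or.inl h2
        · exact Or.inr (Or.inl h2)
        · exact Or.inr (Or.inr (Or.inl h2))
        · exact Or.inr (Or.inr (Or.inr (Or.inl h2)))
      · have h3 : t ∈ S \ {a, b, c, d} := Finset.mem_sdiff.2 ⟨h, h2⟩
        rw [hS] at h3
        simp only [Finset.mem_insert, Finset.mem_singleton] at h3 ⊢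
        exact Or.inr (Or.inr (Or.inr (Or.inr h3)))
    have hz_out : ∀ t, t ∉ ({a, b, c, d, a1, b1, c1, d1} : Finset α) → z t = t := by
      intro t ht
      simp only [Finset.mem_insert, Finset.mem_singleton, not_or] at ht
      obtain ⟨n1, n2, n3, n4, n5, n6, n7, n8⟩ := ht
      exact eo t n1 n2 n5 n8 n4 n6 n3 n7
    refine ⟨z, hz, ?_, by omega, ?_, ?_⟩
    · intro v hv
      apply hz_out
      intro h
      simp only [Finset.mem_insert, Finset.mem_singleton] at h
      have hv' := hv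
      rcases h with rfl | rfl | rfl | rfl | h
      · exact hv' ma
      · exact hv' mb
      · exact hv' mc
      · exact hv' md
      · exact hv' (hm v h).1
    · refine oddP_of_pts ({a, b, c, d, a1, b1, c1, d1} : Finset α) ?_ ?_
      · intro t ht
        simp only [Finset.mem_insert, Finset.mem_singleton] at ht
        have f1 : (x * z) c = d1 := by rw [Perm.mul_apply, e7, xc1'']
        have f2 : (x * z) d1 = b1 := by rw [Perm.mul_apply, e4, xa1]
        have f3 : (x * z) b1 = c := by rw [Perm.mul_apply, e6, xd]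
        have g1 : (x * z) d = a1 := by rw [Perm.mul_apply, e5, xb1'']
        have g2 : (x * z) a1 = c1 := by rw [Perm.mul_apply, e3, xd1'']
        have g3 : (x * z) c1 = d := by rw [Perm.mul_apply, e8, xc]
        obtain ⟨c1', c2', c3'⟩ := cyc3_pts f1 f2 f3
        obtain ⟨c4', c5', c6'⟩ := cyc3_pts g1 g2 g3
        rcases ht with rfl | rfl | rfl | rfl | rfl | rfl | rfl | rfl
        · exact fix1 (by rw [Perm.mul_apply, e1, xb])
        · exact fix1 (by rw [Perm.mul_apply, e2, xa])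
        · exact ⟨3, odd3, c1'⟩
        · exact ⟨3, odd3, c4'⟩
        · exact ⟨3, odd3, c5'⟩
        · exact ⟨3, odd3, c3'⟩
        · exact ⟨3, odd3, c6'⟩
        · exact ⟨3, odd3, c2'⟩
      · intro t ht
        rw [Perm.mul_apply, hz_out t ht]
        exact hc.fx t (hout t ht)
    · refine oddP_of_pts ({a, b, c, d, a1, b1, c1, d1} : Finset α) ?_ ?_
      · intro t ht
        simp only [Finset.mem_insert, Finset.mem_singleton] at ht
        have f1 : (y * z) a = c := by rw [Perm.mul_apply, e1, yb]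
        have f2 : (y * z) c = b1 := by rw [Perm.mul_apply, e7, yc1'']
        have f3 : (y * z) b1 = a := by rw [Perm.mul_apply, e6, yd]
        have g1 : (y * z) b = d := by rw [Perm.mul_apply, e2, ya]
        have g2 : (y * z) d = c1 := by rw [Perm.mul_apply, e5, yb1'']
        have g3 : (y * z) c1 = b := by rw [Perm.mul_apply, e8, yc]
        obtain ⟨c1', c2', c3'⟩ := cyc3_pts f1 f2 f3
        obtain ⟨c4', c5', c6'⟩ := cyc3_pts g1 g2 g3
        rcases ht with rfl | rfl | rfl | rfl | rfl | rfl | rfl | rfl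
        · exact ⟨3, odd3, c1'⟩
        · exact ⟨3, odd3, c4'⟩
        · exact ⟨3, odd3, c2'⟩
        · exact ⟨3, odd3, c5'⟩
        · exact fix1 (by rw [Perm.mul_apply, e3, yd1''])
        · exact ⟨3, odd3, c3'⟩
        · exact ⟨3, odd3, c6'⟩
        · exact fix1 (by rw [Perm.mul_apply, e4, ya1''])
      · intro t ht
        rw [Perm.mul_apply, hz_out t ht]
        exact hc.fy t (hout t ht)

end Cfsg.Agent.Lib.OddSym
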