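import Cfsg.Agent.Lib.OddSym.Ins

set_option autoImplicit false
set_option linter.unusedSectionVars false
set_option linter.unusedVariables false

namespace Cfsg.Agent.Lib.OddSym

open Equiv Equiv.Perm

variable {α : Type*} [DecidableEq α] [Fintype α]

lemma Bad.rot {S : Finset α} {x y : Perm α} (hx : Invol x) (hy : Invol y) (h : Bad S x y) {a : α}
    (ha : a ∈ S) : ∃ b c d, C4 x y a b c d ∧ S = {a, b, c, d} := by
  obtain ⟨a1, b1, c1, d1, h4, rfl⟩ := h
  simp only [Finset.mem_insert, Finset.mem_singleton] at ha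
  rcases ha with rfl | rfl | rfl | rfl
  · exact ⟨_, _, _, h4, rfl⟩
  · refine ⟨a1, d1, c1, h4.rot1 hx hy, ?_⟩
    ext t; simp only [Finset.mem_insert, Finset.mem_singleton]; tauto
  · refine ⟨d1, a1, b1, h4.rot2, ?_⟩
    ext t; simp only [Finset.mem_insert, Finset.mem_singleton]; tauto
  · refine ⟨c1, b1, a1, h4.rot2.rot1 hx hy, ?_⟩
    ext t; simp only [Finset.mem_insert, Finset.mem_singleton]; tauto

/-- Shorten an alternating walk `a -x- b -y- c -x- d -y- e -x- f`. -/
lemma red_long {S : Finset α} {x y : Perm α} (hc : Cfg S x y)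
    (IH : ∀ (S' : Finset α) (x' y' : Perm α), S'.card < S.card → Cfg S' x' y' →
      Sol S' x' y' ∨ Bad S' x' y')
    {a b c d e f : α} (ab : a ≠ b) (ac : a ≠ c) (ad : a ≠ d) (ae : a ≠ e) (af : a ≠ f)
    (bc : b ≠ c) (bd : b ≠ d) (be : b ≠ e) (bf : b ≠ f) (cd : c ≠ d) (ce : c ≠ e) (cf : c ≠ f)
    (de : d ≠ e) (df : d ≠ f) (ef : e ≠ f)
    (xa : x a = b) (yb : y b = c) (xc : x c = d) (yd : y d = e) (xe : x e = f) : Sol S x y := by
  have xb : x b = a := by rw [← xa, hc.hx]
  have yc : y c = b := by rw [← yb, hc.hy]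
  have xd : x d = c := by rw [← xc, hc.hx]
  have ye : y e = d := by rw [← yd, hc.hy]
  have xf : x f = e := by rw [← xe, hc.hx]
  have ma : a ∈ S := hc.mem_of_x (by rw [xa]; exact ab.symm)
  have mb : b ∈ S := hc.mem_of_x (by rw [xb]; exact ab)
  have mc : c ∈ S := hc.mem_of_x (by rw [xc]; exact cd.symm)
  have md : d ∈ S := hc.mem_of_x (by rw [xd]; exact cd)
  have me : e ∈ S := hc.mem_of_x (by rw [xe]; exact ef.symm)
  have mf : f ∈ S := hc.mem_of_x (by rw [xf]; exact ef)
  obtain ⟨x1, hx1, xa1, xb1, xo1, xc1⟩ := del_edge hc.hx ab xa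
  obtain ⟨x2, hx2, xa2, xb2, xo2, xc2⟩ := del_edge hx1 cd (by rw [xo1 _ ac.symm bc.symm, xc])
  obtain ⟨x3, hx3, xa3, xb3, xo3, xc3⟩ := del_edge hx2 ef
    (by rw [xo2 _ ce.symm de.symm, xo1 _ ae.symm be.symm, xe])
  obtain ⟨x', hx', xa4, xb4, xo4, xc4⟩ := add_edge hx3 af
    (by rw [xo3 _ ae af, xo2 _ ac ad]; exact xa1)
    xb3
  obtain ⟨y1, hy1, ya1, yb1, yo1, yc1⟩ := del_edge hc.hy bc yb
  obtain ⟨y', hy', ya2, yb2, yo2, yc2⟩ := del_edge hy1 de (by rw [yo1 _ bd.symm cd.symm, yd])
  have x'b : x' b = b := by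
    rw [xo4 _ ab.symm bf, xo3 _ be bf, xo2 _ bc bd]; exact xb1
  have x'c : x' c = c := by
    rw [xo4 _ ac.symm cf, xo3 _ ce cf]; exact xa2
  have x'd : x' d = d := by
    rw [xo4 _ ad.symm df, xo3 _ de df]; exact xb2
  have x'e : x' e = e := by
    rw [xo4 _ ae.symm ef]; exact xa3
  have y'b : y' b = b := by rw [yo2 _ bd be]; exact ya1
  have y'c : y' c = c := by rw [yo2 _ cd ce]; exact yb1
  have xout : ∀ t, t ≠ a → t ≠ b → t ≠ c → t ≠ d → t ≠ e → t ≠ f → x' t = x t := by
    intro t n1 n2 n3 n4 n5 n6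
    rw [xo4 _ n1 n6, xo3 _ n5 n6, xo2 _ n3 n4, xo1 _ n1 n2]
  have yout : ∀ t, t ≠ b → t ≠ c → t ≠ d → t ≠ e → y' t = y t := by
    intro t n1 n2 n3 n4
    rw [yo2 _ n3 n4, yo1 _ n1 n2]
  have hT : ∀ t, t ∈ ({b, c, d, e} : Finset α) ↔ (t = b ∨ t = c ∨ t = d ∨ t = e) := by
    intro t; simp
  have hlt : (S \ {b, c, d, e}).card < S.card := by
    apply Finset.card_lt_card
    refine ⟨Finset.sdiff_subset, ?_⟩
    intro h
    have := h mb
    simp at this
  have card := hc.card
  have hcfg : Cfg (S \ {b, c, d, e}) x' y' := by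
    refine ⟨hx', hy', ?_, ?_, by omega⟩
    · intro t ht
      by_cases h2 : t = b
      · subst h2; exact x'b
      by_cases h3 : t = c
      · subst h3; exact x'c
      by_cases h4 : t = d
      · subst h4; exact x'd
      by_cases h5 : t = e
      · subst h5; exact x'e
      have h6 : t ∉ S := by
        intro h6
        apply ht
        rw [Finset.mem_sdiff, hT]
        refine ⟨h6, ?_⟩
        rintro (h | h | h | h)
        · exact h2 h
        · exact h3 h
        · exact h4 h
        · exact h5 h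
      have n1 : t ≠ a := fun h => h6 (h ▸ ma)
      have n6 : t ≠ f := fun h => h6 (h ▸ mf)
      rw [xout t n1 h2 h3 h4 h5 n6]
      exact hc.fx t h6
    · intro t ht
      by_cases h2 : t = b
      · subst h2; exact y'b
      by_cases h3 : t = c
      · subst h3; exact y'c
      by_cases h4 : t = d
      · subst h4; exact ya2
      by_cases h5 : t = e
      · subst h5; exact yb2
      have h6 : t ∉ S := by
        intro h6
        apply ht
        rw [Finset.mem_sdiff, hT]
        refine ⟨h6, ?_⟩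
        rintro (h | h | h | h)
        · exact h2 h
        · exact h3 h
        · exact h4 h
        · exact h5 h
      rw [yout t h2 h3 h4 h5]
      exact hc.fy t h6
  have memS : ∀ t, t ∉ S → t ≠ b ∧ t ≠ c ∧ t ≠ d ∧ t ≠ e ∧ t ∉ S \ {b, c, d, e} := by
    intro t ht
    refine ⟨fun h => ht (h ▸ mb), fun h => ht (h ▸ mc), fun h => ht (h ▸ md), fun h => ht (h ▸ me),
      fun h => ht (Finset.mem_sdiff.1 h).1⟩
  rcases IH _ _ _ hlt hcfg with hsol | hbad
  · obtain ⟨z', hz', hzf, hzc, hoddx, hoddy⟩ := hsol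
    have zTb : z' b = b := hzf b (by simp)
    have zTc : z' c = c := hzf c (by simp)
    have zTd : z' d = d := hzf d (by simp)
    have zTe : z' e = e := hzf e (by simp)
    obtain ⟨z1, hz1, p1, p2, po, pc⟩ := add_edge hz' bc zTb zTc
    obtain ⟨z, hz, q1, q2, qo, qc⟩ := add_edge hz1 de
      (by rw [po _ bd.symm cd.symm]; exact zTd) (by rw [po _ be.symm ce.symm]; exact zTe)
    have zv : ∀ t, t ≠ b → t ≠ c → t ≠ d → t ≠ e → z t = z' t := by
      intro t n1 n2 n3 n4
      rw [qo _ n3 n4, po _ n1 n2]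
    have zb : z b = c := by rw [qo _ bd be, p1]
    have zc : z c = b := by rw [qo _ cd ce, p2]
    have zneT : ∀ t, t ≠ b → t ≠ c → t ≠ d → t ≠ e →
        z' t ≠ b ∧ z' t ≠ c ∧ z' t ≠ d ∧ z' t ≠ e := by
      intro t n1 n2 n3 n4
      refine ⟨fun h => n1 (z'.injective (h.trans zTb.symm)), fun h => n2 (z'.injective (h.trans zTc.symm)),
        fun h => n3 (z'.injective (h.trans zTd.symm)), fun h => n4 (z'.injective (h.trans zTe.symm))⟩
    have wxb : (x' * z') b = b := by rw [Perm.mul_apply, zTb, x'b]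
    have wxc : (x' * z') c = c := by rw [Perm.mul_apply, zTc, x'c]
    have wxd : (x' * z') d = d := by rw [Perm.mul_apply, zTd, x'd]
    have wxe : (x' * z') e = e := by rw [Perm.mul_apply, zTe, x'e]
    -- the two special points
    set p := z' a with hp
    set q := z' f with hq
    have zp : z' p = a := hz' a
    have zq : z' q = f := hz' f
    have ptb : p ≠ b := fun h => ab (by rw [← zp, h, zTb])
    have ptc : p ≠ c := fun h => ac (by rw [← zp, h, zTc])
    have ptd : p ≠ d := fun h => ad (by rw [← zp, h, zTd])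
    have pte : p ≠ e := fun h => ae (by rw [← zp, h, zTe])
    have qtb : q ≠ b := fun h => bf.symm (by rw [← zq, h, zTb])
    have qtc : q ≠ c := fun h => cf.symm (by rw [← zq, h, zTc])
    have qtd : q ≠ d := fun h => df.symm (by rw [← zq, h, zTd])
    have qte : q ≠ e := fun h => ef.symm (by rw [← zq, h, zTe])
    have pq : p ≠ q := fun h => af (z'.injective h)
    refine ⟨z, hz, ?_, by omega, ?_, ?_⟩
    · intro t ht
      obtain ⟨t2, t3, t4, t5, t6⟩ := memS t ht
      rw [zv t t2 t3 t4 t5]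
      exact hzf t t6
    · -- `x * z`
      refine hoddx.ins_two (p := p) (u := b) (v := d) (q := q) (r := e) (s := c)
        ptb ptd bd qte qtc ce.symm be.symm de.symm pte.symm bc.symm cd ptc.symm qtb qtd pq.symm
        wxb wxd wxe wxc ?_ ?_ ?_ ?_ ?_ ?_ ?_
      · rw [Perm.mul_apply, zv _ ptb ptc ptd pte, zp, xa]
      · rw [Perm.mul_apply, zb, xc]
      · rw [Perm.mul_apply, q1, xe, Perm.mul_apply, zp, xa4]
      · rw [Perm.mul_apply, zv _ qtb qtc qtd qte, zq, xf]
      · rw [Perm.mul_apply, q2, xd]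
      · rw [Perm.mul_apply, zc, xb, Perm.mul_apply, zq, xb4]
      · intro t n1 n2 n3 n4 n5 n6
        have e' := zv t n2 n6 n3 n5
        obtain ⟨s2, s3, s4, s5⟩ := zneT t n2 n6 n3 n5
        have s1 : z' t ≠ a := fun h => n1 (by rw [← hz' t, h])
        have s6 : z' t ≠ f := fun h => n4 (by rw [← hz' t, h])
        rw [Perm.mul_apply, Perm.mul_apply, e', xout _ s1 s2 s3 s4 s5 s6]
    · -- `y * z`
      have : y * z = y' * z' := by
        ext t
        by_cases t1 : t = b
        · subst t1; simp only [Perm.mul_apply]; rw [zb, yc, zTb, y'b]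
        by_cases t2 : t = c
        · subst t2; simp only [Perm.mul_apply]; rw [zc, yb, zTc, y'c]
        by_cases t3 : t = d
        · subst t3; simp only [Perm.mul_apply]; rw [q1, ye, zTd, ya2]
        by_cases t4 : t = e
        · subst t4; simp only [Perm.mul_apply]; rw [q2, yd, zTe, yb2]
        obtain ⟨s2, s3, s4, s5⟩ := zneT t t1 t2 t3 t4
        simp only [Perm.mul_apply]
        rw [zv t t1 t2 t3 t4, yout _ s2 s3 s4 s5]
      rw [this]; exact hoddy
  · -- the cycle of length eight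
    have hcardx' := Bad.card_eq hcfg hbad
    have haS : a ∈ S \ {b, c, d, e} := by
      rw [Finset.mem_sdiff, hT]
      refine ⟨ma, ?_⟩
      rintro (h | h | h | h)
      · exact ab h
      · exact ac h
      · exact ad h
      · exact ae h
    obtain ⟨f', g, h, h4, hS⟩ := hbad.rot hx' hy' haS
    have hf' : f' = f := by
      have := h4.2.2.2.2.2.2.1
      rw [xa4] at this
      exact this.symm
    subst hf'
    have r := h4.rev hx' hy'
    obtain ⟨xf', xh', yg', ya'⟩ := r
    obtain ⟨af', ag, ah, fg, fh, gh, xa', yf', xg', yh'⟩ := h4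
    have hm : ∀ t, (t = a ∨ t = f' ∨ t = g ∨ t = h) → t ∈ S ∧ t ≠ b ∧ t ≠ c ∧ t ≠ d ∧ t ≠ e := by
      intro t ht
      have h1 : t ∈ S \ {b, c, d, e} := by rw [hS]; simpa using ht
      rw [Finset.mem_sdiff, hT] at h1
      obtain ⟨h2, h3⟩ := h1
      simp only [not_or] at h3
      exact ⟨h2, h3.1, h3.2.1, h3.2.2.1, h3.2.2.2⟩
    obtain ⟨mg, gb, gc, gd, ge⟩ := hm g (by simp)
    obtain ⟨mh, hb, hc', hd, he⟩ := hm h (by simp)
    have xg : x g = h := by rw [← xout _ ag.symm gb gc gd ge fg.symm]; exact xg'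
    have xh : x h = g := by rw [← xout _ ah.symm hb hc' hd he fh.symm]; exact xh'
    have yf : y f' = g := by rw [← yout _ bf.symm cf.symm df.symm ef.symm]; exact yf'
    have yg : y g = f' := by rw [← yout _ gb gc gd ge]; exact yg'
    have yh : y h = a := by rw [← yout _ hb hc' hd he]; exact yh'
    have ya : y a = h := by rw [← yout _ ab ac ad ae]; exact ya'
    -- edges (a,b) (d,e) (c,g) (f,h)
    obtain ⟨z, hz, e1, e2, e3, e4, e5, e6, e7, e8, eo, ec⟩ := four_edges (α := α)
      (p1 := a) (q1 := b) (p2 := d) (q2 := e) (p3 := c) (q3 := g) (p4 := f') (q4 := h)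
      ab ad ae ac ag af ah bd be bc gb.symm bf hb.symm de cd.symm gd.symm df hd.symm
      ce.symm ge.symm ef he.symm gc.symm cf hc'.symm fg.symm gh fh
    have hout : ∀ t, t ∉ ({a, b, c, d, e, f', g, h} : Finset α) → t ∉ S := by
      intro t ht h'
      apply ht
      by_cases h2 : t ∈ ({b, c, d, e} : Finset α)
      · rw [hT] at h2
        simp only [Finset.mem_insert, Finset.mem_singleton]
        rcases h2 with h2 | h2 | h2 | h2
        · exact Or.inr (Or.inl h2)
        · exact Or.inr (Or.inr (Or.inl h2))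
        · exact Or.inr (Or.inr (Or.inr (Or.inl h2)))
        · exact Or.inr (Or.inr (Or.inr (Or.inr (Or.inl h2))))
      · have h3 : t ∈ S \ {b, c, d, e} := Finset.mem_sdiff.2 ⟨h', h2⟩
        rw [hS] at h3
        simp only [Finset.mem_insert, Finset.mem_singleton] at h3 ⊢
        rcases h3 with h3 | h3 | h3 | h3
        · exact Or.inl h3
        · exact Or.inr (Or.inr (Or.inr (Or.inr (Or.inr (Or.inl h3)))))
        · exact Or.inr (Or.inr (Or.inr (Or.inr (Or.inr (Or.inr (Or.inl h3))))))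
        · exact Or.inr (Or.inr (Or.inr (Or.inr (Or.inr (Or.inr (Or.inr h3))))))
    have hz_out : ∀ t, t ∉ ({a, b, c, d, e, f', g, h} : Finset α) → z t = t := by
      intro t ht
      simp only [Finset.mem_insert, Finset.mem_singleton, not_or] at ht
      obtain ⟨n1, n2, n3, n4, n5, n6, n7, n8⟩ := ht
      exact eo t n1 n2 n4 n5 n3 n7 n6 n8
    refine ⟨z, hz, ?_, by omega, ?_, ?_⟩
    · intro v hv
      apply hz_out
      intro h'
      simp only [Finset.mem_insert, Finset.mem_singleton] at h'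
      rcases h' with rfl | rfl | rfl | rfl | rfl | rfl | rfl | rfl
      · exact hv ma
      · exact hv mb
      · exact hv mc
      · exact hv md
      · exact hv me
      · exact hv mf
      · exact hv mg
      · exact hv mh
    · refine oddP_of_pts ({a, b, c, d, e, f', g, h} : Finset α) ?_ ?_
      · intro t ht
        simp only [Finset.mem_insert, Finset.mem_singleton] at ht
        have f1 : (x * z) c = h := by rw [Perm.mul_apply, e5, xg]
        have f2 : (x * z) h = e := by rw [Perm.mul_apply, e8, xf]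
        have f3 : (x * z) e = c := by rw [Perm.mul_apply, e4, xd]
        have g1 : (x * z) d = f' := by rw [Perm.mul_apply, e3, xe]
        have g2 : (x * z) f' = g := by rw [Perm.mul_apply, e7, xh]
        have g3 : (x * z) g = d := by rw [Perm.mul_apply, e6, xc]
        obtain ⟨c1', c2', c3'⟩ := cyc3_pts f1 f2 f3
        obtain ⟨c4', c5', c6'⟩ := cyc3_pts g1 g2 g3
        rcases ht with rfl | rfl | rfl | rfl | rfl | rfl | rfl | rfl
        · exact fix1 (by rw [Perm.mul_apply, e1, xb])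
        · exact fix1 (by rw [Perm.mul_apply, e2, xa])
        · exact ⟨3, odd3, c1'⟩
        · exact ⟨3, odd3, c4'⟩
        · exact ⟨3, odd3, c3'⟩
        · exact ⟨3, odd3, c5'⟩
        · exact ⟨3, odd3, c6'⟩
        · exact ⟨3, odd3, c2'⟩
      · intro t ht
        rw [Perm.mul_apply, hz_out t ht]
        exact hc.fx t (hout t ht)
    · refine oddP_of_pts ({a, b, c, d, e, f', g, h} : Finset α) ?_ ?_
      · intro t ht
        simp only [Finset.mem_insert, Finset.mem_singleton] at ht
        have f1 : (y * z) a = c := by rw [Perm.mul_apply, e1, yb]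
        have f2 : (y * z) c = f' := by rw [Perm.mul_apply, e5, yg]
        have f3 : (y * z) f' = a := by rw [Perm.mul_apply, e7, yh]
        have g1 : (y * z) b = h := by rw [Perm.mul_apply, e2, ya]
        have g2 : (y * z) h = g := by rw [Perm.mul_apply, e8, yf]
        have g3 : (y * z) g = b := by rw [Perm.mul_apply, e6, yc]
        obtain ⟨c1', c2', c3'⟩ := cyc3_pts f1 f2 f3
        obtain ⟨c4', c5', c6'⟩ := cyc3_pts g1 g2 g3
        rcases ht with rfl | rfl | rfl | rfl | rfl | rfl | rfl | rfl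
        · exact ⟨3, odd3, c1'⟩
        · exact ⟨3, odd3, c4'⟩
        · exact ⟨3, odd3, c2'⟩
        · exact fix1 (by rw [Perm.mul_apply, e3, ye])
        · exact fix1 (by rw [Perm.mul_apply, e4, yd])
        · exact ⟨3, odd3, c3'⟩
        · exact ⟨3, odd3, c6'⟩
        · exact ⟨3, odd3, c5'⟩
      · intro t ht
        rw [Perm.mul_apply, hz_out t ht]
        exact hc.fy t (hout t ht)

/-- Analysis at an end of a path. -/
lemma end_cases {S : Finset α} {x y : Perm α} (hc : Cfg S x y) (hno : ¬ HasC4 x y)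
    (IH : ∀ (S' : Finset α) (x' y' : Perm α), S'.card < S.card → Cfg S' x' y' →
      Sol S' x' y' ∨ Bad S' x' y')
    {u : α} (hxu : x u = u) (hyu : y u ≠ u) :
    Sol S x y ∨ (∃ u1, u ≠ u1 ∧ y u = u1 ∧ x u1 = u1) ∨
      (∃ u1 u2 u3, u ≠ u1 ∧ u ≠ u2 ∧ u ≠ u3 ∧ u1 ≠ u2 ∧ u1 ≠ u3 ∧ u2 ≠ u3 ∧
        y u = u1 ∧ x u1 = u2 ∧ y u2 = u3 ∧ x u3 = u3) := by
  have hxi : ∀ s t, x s = t → x t = s := fun s t h => by rw [← h, hc.hx]
  have hyi : ∀ s t, y s = t → y t = s := fun s t h => by rw [← h, hc.hy]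
  set u1 := y u with hu1
  have h01 : u ≠ u1 := hyu.symm
  by_cases c1 : x u1 = u1
  · exact Or.inr (Or.inl ⟨u1, h01, rfl, c1⟩)
  set u2 := x u1 with hu2
  have h12 : u1 ≠ u2 := fun h => c1 h.symm
  have h02 : u ≠ u2 := by
    intro h
    apply h01
    have := hxi u1 u2 rfl
    rw [← h, hxu] at this
    exact this
  by_cases c2 : y u2 = u2
  · left
    exact red_p3 hc hno IH h01 h02 h12 hxu rfl rfl c2
  set u3 := y u2 with hu3
  have h23 : u2 ≠ u3 := fun h => c2 h.symm
  have h03 : u ≠ u3 := by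
    intro h
    apply h12
    have e1 : y u3 = u2 := hyi u2 u3 rfl
    rw [← h] at e1
    exact e1
  have h13 : u1 ≠ u3 := by
    intro h
    apply h02
    have e1 : y u3 = u2 := hyi u2 u3 rfl
    have e2 : y u1 = u := hyi u u1 rfl
    rw [← h, e2] at e1
    exact e1
  by_cases c3 : x u3 = u3
  · exact Or.inr (Or.inr ⟨u1, u2, u3, h01, h02, h03, h12, h13, h23, rfl, rfl, rfl, c3⟩)
  set u4 := x u3 with hu4
  have h34 : u3 ≠ u4 := fun h => c3 h.symm
  have e43 : x u4 = u3 := hxi u3 u4 rfl
  have e21 : x u2 = u1 := hxi u1 u2 rfl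
  have h04 : u ≠ u4 := by
    intro h
    rw [← h, hxu] at e43
    exact h03 e43
  have h14 : u1 ≠ u4 := by
    intro h
    rw [← h] at e43
    exact h23 (e43.symm.trans (by rfl) |>.symm ▸ rfl)
  have h24 : u2 ≠ u4 := by
    intro h
    rw [← h, e21] at e43
    exact h13 e43
  by_cases c4 : y u4 = u4
  · left
    exact red_p5 hc hno IH h01 h02 h03 h04 h12 h13 h14 h23 h24 h34 hxu rfl rfl rfl rfl c4
  set u5 := y u4 with hu5
  have h45 : u4 ≠ u5 := fun h => c4 h.symm
  have e54 : y u5 = u4 := hyi u4 u5 rfl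
  have e10 : y u1 = u := hyi u u1 rfl
  have e32 : y u3 = u2 := hyi u2 u3 rfl
  have h05 : u ≠ u5 := by
    intro h
    rw [← h] at e54
    exact h14 e54
  have h15 : u1 ≠ u5 := by
    intro h
    rw [← h, e10] at e54
    exact h04 e54
  have h25 : u2 ≠ u5 := by
    intro h
    rw [← h] at e54
    exact h34 e54
  have h35 : u3 ≠ u5 := by
    intro h
    rw [← h, e32] at e54
    exact h24 e54
  left
  have : Sol S y x := red_long hc.symm IH h01 h02 h03 h04 h05 h12 h13 h14 h15 h23 h24 h25 h34 h35 h45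
    rfl rfl rfl rfl rfl
  exact this.symm hc.card.symm

end Cfsg.Agent.Lib.OddSym
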