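import Cfsg.Agent.Lib.OddSym.Long

set_option autoImplicit false
set_option linter.unusedSectionVars false
set_option linter.unusedVariables false

namespace Cfsg.Agent.Lib.OddSym

open Equiv Equiv.Perm

variable {α : Type*} [DecidableEq α] [Fintype α]

lemma exists_other_end {x y : Perm α} (hcard : x.support.card = y.support.card) {u : α}
    (h1 : x u = u) (h2 : y u ≠ u) : ∃ v, y v = v ∧ x v ≠ v := by
  by_contra hcon
  push Not at hcon
  have hsub : x.support ⊆ y.support := by
    intro t ht
    rw [Perm.mem_support] at ht ⊢
    intro h3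
    exact ht (hcon t h3)
  have heq := Finset.eq_of_subset_of_card_le hsub (by omega)
  have : u ∈ y.support := by rw [Perm.mem_support]; exact h2
  rw [← heq, Perm.mem_support] at this
  exact this h1

theorem main_step (n : ℕ) : ∀ (S : Finset α) (x y : Perm α), S.card = n → Cfg S x y →
    Sol S x y ∨ Bad S x y := by
  induction n using Nat.strong_induction_on with
  | _ n ih =>
    intro S x y hS hc
    have IH : ∀ (S' : Finset α) (x' y' : Perm α), S'.card < S.card → Cfg S' x' y' →
        Sol S' x' y' ∨ Bad S' x' y' := by
      intro S' x' y' hlt hc'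
      exact ih S'.card (by omega) S' x' y' rfl hc'
    by_cases h4 : HasC4 x y
    · obtain ⟨a, b, c, d, h⟩ := h4
      exact red_c4 hc IH h
    left
    have h4' : ¬ HasC4 y x := fun h => h4 h.symm
    by_cases hend : ∃ u, x u = u ∧ y u ≠ u
    · obtain ⟨u, hu1, hu2⟩ := hend
      obtain ⟨v, hv1, hv2⟩ := exists_other_end hc.card hu1 hu2
      rcases end_cases hc h4 IH hu1 hu2 with hs | ⟨w2, n1, b2, b3⟩ |
          ⟨w2, w3, w4, n12, n13, n14, n23, n24, n34, b2, b3, b4, b5⟩
      · exact hs
      · -- `u` starts a path of two points
        rcases end_cases hc.symm h4' IH hv1 hv2 with hs | ⟨v2, m1, a2, a3⟩ |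
            ⟨v2, v3, v4, m12, m13, m14, m23, m24, m34, a2, a3, a4, a5⟩
        · exact hs.symm hc.card.symm
        · exact red_pair11 hc h4 IH m1 n1 hv1 a2 a3 hu1 b2 b3
        · exact red_pair21 hc h4 IH m12 m13 m14 m23 m24 m34 n1 hv1 a2 a3 a4 a5 hu1 b2 b3
      · rcases end_cases hc.symm h4' IH hv1 hv2 with hs | ⟨v2, m1, a2, a3⟩ |
            ⟨v2, v3, v4, m12, m13, m14, m23, m24, m34, a2, a3, a4, a5⟩
        · exact hs.symm hc.card.symm
        · have : Sol S y x := red_pair21 hc.symm h4' IH n12 n13 n14 n23 n24 n34 m1 hu1 b2 b3 b4 b5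
            hv1 a2 a3
          exact this.symm hc.card.symm
        · exact red_pair22 hc h4 IH m12 m13 m14 m23 m24 m34 n12 n13 n14 n23 n24 n34 hv1 a2 a3 a4 a5
            hu1 b2 b3 b4 b5
    · push Not at hend
      have hend2 : ∀ v, y v = v → x v = v := by
        intro v hv
        by_contra h5
        obtain ⟨u, hu1, hu2⟩ := exists_other_end hc.card.symm hv h5
        exact hu2 (hend u hu1)
      by_cases hall : ∀ w, x w = w
      · -- both trivial
        have hx1 : x = 1 := Equiv.ext hall
        have hy1 : y = 1 := Equiv.ext (fun w => hend w (hall w))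
        refine ⟨1, fun _ => rfl, fun _ _ => rfl, ?_, ?_, ?_⟩
        · rw [hx1]
        · rw [hx1, mul_one]; exact oddP_one
        · rw [hy1, mul_one]; exact oddP_one
      push Not at hall
      obtain ⟨w, hw⟩ := hall
      have hw' : y w ≠ w := fun h => hw (hend2 w h)
      by_cases hdbl : x w = y w
      · exact red_dbl hc h4 IH (Ne.symm hw) rfl hdbl.symm
      -- a cycle
      have hxi : ∀ s t, x s = t → x t = s := fun s t h => by rw [← h, hc.hx]
      have hyi : ∀ s t, y s = t → y t = s := fun s t h => by rw [← h, hc.hy]
      set w1 := x w with hw1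
      have e10 : x w1 = w := hxi w w1 rfl
      have h01 : w ≠ w1 := Ne.symm hw
      have c1 : y w1 ≠ w1 := fun h => by
        have := hend2 w1 h
        rw [e10] at this
        exact h01 this
      set w2 := y w1 with hw2
      have e21 : y w2 = w1 := hyi w1 w2 rfl
      have h12 : w1 ≠ w2 := Ne.symm c1
      have h02 : w ≠ w2 := by
        intro h
        apply hdbl
        rw [← h] at e21
        exact e21.symm
      have c2 : x w2 ≠ w2 := fun h => by
        have := hend w2 h
        rw [e21] at this
        exact h12 this
      set w3 := x w2 with hw3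
      have e32 : x w3 = w2 := hxi w2 w3 rfl
      have h23 : w2 ≠ w3 := Ne.symm c2
      have h03 : w ≠ w3 := by
        intro h
        rw [← h, show x w = w1 from rfl] at e32
        exact h12 e32
      have h13 : w1 ≠ w3 := by
        intro h
        rw [← h, e10] at e32
        exact h02 e32
      have c3 : y w3 ≠ w3 := fun h => by
        have := hend2 w3 h
        rw [e32] at this
        exact h23 this
      set w4 := y w3 with hw4
      have e43 : y w4 = w3 := hyi w3 w4 rfl
      have h34 : w3 ≠ w4 := Ne.symm c3
      by_cases hcyc : w4 = w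
      · exfalso
        exact h4 ⟨w, w1, w2, w3, h01, h02, h03, h12, h13, h23, rfl, rfl, rfl, hcyc⟩
      have h04 : w ≠ w4 := Ne.symm hcyc
      have e12 : y w1 = w2 := rfl
      have e23 : x w2 = w3 := rfl
      have h14 : w1 ≠ w4 := by
        intro h
        rw [← h, e12] at e43
        exact h23 e43
      have h24 : w2 ≠ w4 := by
        intro h
        rw [← h, e21] at e43
        exact h13 e43
      have c4 : x w4 ≠ w4 := fun h => by
        have := hend w4 h
        rw [e43] at this
        exact h34 this
      set w5 := x w4 with hw5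
      have e54 : x w5 = w4 := hxi w4 w5 rfl
      have h45 : w4 ≠ w5 := Ne.symm c4
      have e01 : x w = w1 := rfl
      have h05 : w ≠ w5 := by
        intro h
        rw [← h, e01] at e54
        exact h14 e54
      have h15 : w1 ≠ w5 := by
        intro h
        rw [← h, e10] at e54
        exact h04 e54
      have h25 : w2 ≠ w5 := by
        intro h
        rw [← h, e23] at e54
        exact h34 e54
      have h35 : w3 ≠ w5 := by
        intro h
        rw [← h, e32] at e54
        exact h24 e54
      exact red_long hc IH h01 h02 h03 h04 h05 h12 h13 h14 h15 h23 h24 h25 h34 h35 h45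
        rfl rfl rfl rfl rfl

/-- Existence of the common neighbour. -/
theorem exists_mid (hcard : 5 ≤ Fintype.card α) {x y : Perm α} (hx : Invol x) (hy : Invol y)
    (h : x.support.card = y.support.card) :
    ∃ z : Perm α, Invol z ∧ z.support.card = x.support.card ∧
      Odd (orderOf (x * z)) ∧ Odd (orderOf (y * z)) := by
  have hc : Cfg (Finset.univ : Finset α) x y :=
    ⟨hx, hy, fun v hv => absurd (Finset.mem_univ v) hv, fun v hv => absurd (Finset.mem_univ v) hv, h⟩
  rcases main_step _ Finset.univ x y rfl hc with hs | hb
  · obtain ⟨z, h1, -, h3, h4, h5⟩ := hs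
    exact ⟨z, h1, h3, h4.orderOf_odd, h5.orderOf_odd⟩
  · exfalso
    obtain ⟨a, b, c, d, -, hS⟩ := hb
    have : (Finset.univ : Finset α).card ≤ 4 := by
      rw [hS]
      exact Finset.card_le_four
    rw [Finset.card_univ] at this
    omega

end Cfsg.Agent.Lib.OddSym
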