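import Cfsg.Agent.Lib.OddSym.Red

set_option autoImplicit false
set_option linter.unusedSectionVars false
set_option linter.unusedVariables false

namespace Cfsg.Agent.Lib.OddSym

open Equiv Equiv.Perm

variable {α : Type*} [DecidableEq α] [Fintype α]

/-- `v1 -x- v2` and `w1 -y- w2`. -/
lemma red_pair11 {S : Finset α} {x y : Perm α} (hc : Cfg S x y) (hno : ¬ HasC4 x y)
    (IH : ∀ (S' : Finset α) (x' y' : Perm α), S'.card < S.card → Cfg S' x' y' →
      Sol S' x' y' ∨ Bad S' x' y')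
    {v1 v2 w1 w2 : α} (hv : v1 ≠ v2) (hw : w1 ≠ w2)
    (a1 : y v1 = v1) (a2 : x v1 = v2) (a3 : y v2 = v2)
    (b1 : x w1 = w1) (b2 : y w1 = w2) (b3 : x w2 = w2) : Sol S x y := by
  have a2' : x v2 = v1 := by rw [← a2, hc.hx]
  have b2' : y w2 = w1 := by rw [← b2, hc.hy]
  have n11 : v1 ≠ w1 := by rintro rfl; exact hv (b1.symm.trans a2)
  have n12 : v1 ≠ w2 := by rintro rfl; exact hv (b3.symm.trans a2)
  have n21 : v2 ≠ w1 := by rintro rfl; exact hv (a2'.symm.trans b1)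
  have n22 : v2 ≠ w2 := by rintro rfl; exact hv (a2'.symm.trans b3)
  obtain ⟨x', hx', xa, xb, xo, xc⟩ := del_edge hc.hx hv a2
  obtain ⟨y', hy', ya, yb, yo, yc⟩ := del_edge hc.hy hw b2
  have m0 : v1 ∈ S := hc.mem_of_x (by rw [a2]; exact hv.symm)
  have m1 : v2 ∈ S := hc.mem_of_x (by rw [a2']; exact hv)
  have m2 : w1 ∈ S := hc.mem_of_y (by rw [b2]; exact hw.symm)
  have m3 : w2 ∈ S := hc.mem_of_y (by rw [b2']; exact hw)
  have card := hc.card
  refine block_reduction (T := {v1, v2, w1, w2}) (x' := x') (y' := y') hc hno IH ?_ ⟨v1, by simp⟩ hx' hy' ?_ ?_ ?_ ?_ ?_ ?_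
  · intro t ht; simp only [Finset.mem_insert, Finset.mem_singleton] at ht
    rcases ht with rfl | rfl | rfl | rfl <;> assumption
  · intro t ht; simp only [Finset.mem_insert, Finset.mem_singleton] at ht
    rcases ht with rfl | rfl | rfl | rfl
    · exact xa
    · exact xb
    · rw [xo _ n11.symm n21.symm, b1]
    · rw [xo _ n12.symm n22.symm, b3]
  · intro t ht; simp only [Finset.mem_insert, Finset.mem_singleton] at ht
    rcases ht with rfl | rfl | rfl | rfl
    · rw [yo _ n11 n12, a1]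
    · rw [yo _ n21 n22, a3]
    · exact ya
    · exact yb
  · intro t ht; simp only [Finset.mem_insert, Finset.mem_singleton, not_or] at ht
    exact xo t ht.1 ht.2.1
  · intro t ht; simp only [Finset.mem_insert, Finset.mem_singleton, not_or] at ht
    exact yo t ht.2.2.1 ht.2.2.2
  · omega
  · intro z' hz' hzT hzc
    obtain ⟨z, hz, zu, zv, zo, zc⟩ := add_edge hz' n21 (hzT v2 (by simp)) (hzT w1 (by simp))
    have z1 : z v1 = v1 := by rw [zo _ hv n11]; exact hzT v1 (by simp)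
    have z4 : z w2 = w2 := by rw [zo _ n22.symm hw.symm]; exact hzT w2 (by simp)
    refine ⟨z, hz, ?_, by omega, ?_, ?_⟩
    · intro t ht; simp only [Finset.mem_insert, Finset.mem_singleton, not_or] at ht
      exact zo t ht.2.1 ht.2.2.1
    · intro t ht; simp only [Finset.mem_insert, Finset.mem_singleton] at ht
      have e1 : (x * z) v1 = v2 := by rw [Perm.mul_apply, z1, a2]
      have e2 : (x * z) v2 = w1 := by rw [Perm.mul_apply, zu, b1]
      have e3 : (x * z) w1 = v1 := by rw [Perm.mul_apply, zv, a2']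
      obtain ⟨c1, c2, c3⟩ := cyc3_pts e1 e2 e3
      rcases ht with rfl | rfl | rfl | rfl
      · exact ⟨3, odd3, c1⟩
      · exact ⟨3, odd3, c2⟩
      · exact ⟨3, odd3, c3⟩
      · exact fix1 (by rw [Perm.mul_apply, z4, b3])
    · intro t ht; simp only [Finset.mem_insert, Finset.mem_singleton] at ht
      have e1 : (y * z) v2 = w2 := by rw [Perm.mul_apply, zu, b2]
      have e2 : (y * z) w2 = w1 := by rw [Perm.mul_apply, z4, b2']
      have e3 : (y * z) w1 = v2 := by rw [Perm.mul_apply, zv, a3]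
      obtain ⟨c1, c2, c3⟩ := cyc3_pts e1 e2 e3
      rcases ht with rfl | rfl | rfl | rfl
      · exact fix1 (by rw [Perm.mul_apply, z1, a1])
      · exact ⟨3, odd3, c1⟩
      · exact ⟨3, odd3, c3⟩
      · exact ⟨3, odd3, c2⟩

/-- `v1 -x- v2 -y- v3 -x- v4` and `w1 -y- w2`. -/
lemma red_pair21 {S : Finset α} {x y : Perm α} (hc : Cfg S x y) (hno : ¬ HasC4 x y)
    (IH : ∀ (S' : Finset α) (x' y' : Perm α), S'.card < S.card → Cfg S' x' y' →
      Sol S' x' y' ∨ Bad S' x' y')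
    {v1 v2 v3 v4 w1 w2 : α} (v12 : v1 ≠ v2) (v13 : v1 ≠ v3) (v14 : v1 ≠ v4) (v23 : v2 ≠ v3)
    (v24 : v2 ≠ v4) (v34 : v3 ≠ v4) (hw : w1 ≠ w2)
    (a1 : y v1 = v1) (a2 : x v1 = v2) (a3 : y v2 = v3) (a4 : x v3 = v4) (a5 : y v4 = v4)
    (b1 : x w1 = w1) (b2 : y w1 = w2) (b3 : x w2 = w2) : Sol S x y := by
  have a2' : x v2 = v1 := by rw [← a2, hc.hx]
  have a3' : y v3 = v2 := by rw [← a3, hc.hy]
  have a4' : x v4 = v3 := by rw [← a4, hc.hx]
  have b2' : y w2 = w1 := by rw [← b2, hc.hy]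
  have n11 : v1 ≠ w1 := by rintro rfl; exact v12 (b1.symm.trans a2)
  have n12 : v1 ≠ w2 := by rintro rfl; exact v12 (b3.symm.trans a2)
  have n21 : v2 ≠ w1 := by rintro rfl; exact v12 (a2'.symm.trans b1)
  have n22 : v2 ≠ w2 := by rintro rfl; exact v12 (a2'.symm.trans b3)
  have n31 : v3 ≠ w1 := by rintro rfl; exact v34 (b1.symm.trans a4)
  have n32 : v3 ≠ w2 := by rintro rfl; exact v34 (b3.symm.trans a4)
  have n41 : v4 ≠ w1 := by rintro rfl; exact v34 (a4'.symm.trans b1)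
  have n42 : v4 ≠ w2 := by rintro rfl; exact v34 (a4'.symm.trans b3)
  obtain ⟨x1, hx1, xa, xb, xo, xc⟩ := del_edge hc.hx v12 a2
  obtain ⟨x2, hx2, xa2, xb2, xo2, xc2⟩ := del_edge hx1 v34 (by rw [xo _ v13.symm v23.symm, a4])
  obtain ⟨y1, hy1, ya, yb, yo, yc⟩ := del_edge hc.hy v23 a3
  obtain ⟨y2, hy2, ya2, yb2, yo2, yc2⟩ := del_edge hy1 hw (by rw [yo _ n21.symm n31.symm, b2])
  have m1 : v1 ∈ S := hc.mem_of_x (by rw [a2]; exact v12.symm)
  have m2 : v2 ∈ S := hc.mem_of_x (by rw [a2']; exact v12)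
  have m3 : v3 ∈ S := hc.mem_of_x (by rw [a4]; exact v34.symm)
  have m4 : v4 ∈ S := hc.mem_of_x (by rw [a4']; exact v34)
  have m5 : w1 ∈ S := hc.mem_of_y (by rw [b2]; exact hw.symm)
  have m6 : w2 ∈ S := hc.mem_of_y (by rw [b2']; exact hw)
  have card := hc.card
  refine block_reduction (T := {v1, v2, v3, v4, w1, w2}) (x' := x2) (y' := y2) hc hno IH ?_ ⟨v1, by simp⟩ hx2 hy2 ?_ ?_ ?_ ?_ ?_ ?_
  · intro t ht; simp only [Finset.mem_insert, Finset.mem_singleton] at ht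
    rcases ht with rfl | rfl | rfl | rfl | rfl | rfl <;> assumption
  · intro t ht; simp only [Finset.mem_insert, Finset.mem_singleton] at ht
    rcases ht with rfl | rfl | rfl | rfl | rfl | rfl
    · rw [xo2 _ v13 v14]; exact xa
    · rw [xo2 _ v23 v24]; exact xb
    · exact xa2
    · exact xb2
    · rw [xo2 _ n31.symm n41.symm, xo _ n11.symm n21.symm, b1]
    · rw [xo2 _ n32.symm n42.symm, xo _ n12.symm n22.symm, b3]
  · intro t ht; simp only [Finset.mem_insert, Finset.mem_singleton] at ht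
    rcases ht with rfl | rfl | rfl | rfl | rfl | rfl
    · rw [yo2 _ n11 n12, yo _ v12 v13, a1]
    · rw [yo2 _ n21 n22]; exact ya
    · rw [yo2 _ n31 n32]; exact yb
    · rw [yo2 _ n41 n42, yo _ v24.symm v34.symm, a5]
    · exact ya2
    · exact yb2
  · intro t ht; simp only [Finset.mem_insert, Finset.mem_singleton, not_or] at ht
    obtain ⟨n1, n2, n3, n4, n5, n6⟩ := ht
    rw [xo2 _ n3 n4, xo _ n1 n2]
  · intro t ht; simp only [Finset.mem_insert, Finset.mem_singleton, not_or] at ht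
    obtain ⟨n1, n2, n3, n4, n5, n6⟩ := ht
    rw [yo2 _ n5 n6, yo _ n2 n3]
  · omega
  · intro z' hz' hzT hzc
    obtain ⟨z1, hz1, zu, zv, zo, zc⟩ := add_edge hz' v23 (hzT v2 (by simp)) (hzT v3 (by simp))
    obtain ⟨z, hz, zu2, zv2, zo2, zc2⟩ := add_edge hz1 n41
      (by rw [zo _ v24.symm v34.symm]; exact hzT v4 (by simp))
      (by rw [zo _ n21.symm n31.symm]; exact hzT w1 (by simp))
    have z1' : z v1 = v1 := by rw [zo2 _ v14 n11, zo _ v12 v13]; exact hzT v1 (by simp)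
    have z2' : z v2 = v3 := by rw [zo2 _ v24 n21, zu]
    have z3' : z v3 = v2 := by rw [zo2 _ v34 n31, zv]
    have z6' : z w2 = w2 := by
      rw [zo2 _ n42.symm hw.symm, zo _ n22.symm n32.symm]; exact hzT w2 (by simp)
    refine ⟨z, hz, ?_, by omega, ?_, ?_⟩
    · intro t ht; simp only [Finset.mem_insert, Finset.mem_singleton, not_or] at ht
      obtain ⟨n1, n2, n3, n4, n5, n6⟩ := ht
      rw [zo2 _ n4 n5, zo _ n2 n3]
    · intro t ht; simp only [Finset.mem_insert, Finset.mem_singleton] at ht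
      have e1 : (x * z) v1 = v2 := by rw [Perm.mul_apply, z1', a2]
      have e2 : (x * z) v2 = v4 := by rw [Perm.mul_apply, z2', a4]
      have e3 : (x * z) v4 = w1 := by rw [Perm.mul_apply, zu2, b1]
      have e4 : (x * z) w1 = v3 := by rw [Perm.mul_apply, zv2, a4']
      have e5 : (x * z) v3 = v1 := by rw [Perm.mul_apply, z3', a2']
      obtain ⟨c1, c2, c3, c4, c5⟩ := cyc5_pts e1 e2 e3 e4 e5
      rcases ht with rfl | rfl | rfl | rfl | rfl | rfl
      · exact ⟨5, odd5, c1⟩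
      · exact ⟨5, odd5, c2⟩
      · exact ⟨5, odd5, c5⟩
      · exact ⟨5, odd5, c3⟩
      · exact ⟨5, odd5, c4⟩
      · exact fix1 (by rw [Perm.mul_apply, z6', b3])
    · intro t ht; simp only [Finset.mem_insert, Finset.mem_singleton] at ht
      have e1 : (y * z) v4 = w2 := by rw [Perm.mul_apply, zu2, b2]
      have e2 : (y * z) w2 = w1 := by rw [Perm.mul_apply, z6', b2']
      have e3 : (y * z) w1 = v4 := by rw [Perm.mul_apply, zv2, a5]
      obtain ⟨c1, c2, c3⟩ := cyc3_pts e1 e2 e3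
      rcases ht with rfl | rfl | rfl | rfl | rfl | rfl
      · exact fix1 (by rw [Perm.mul_apply, z1', a1])
      · exact fix1 (by rw [Perm.mul_apply, z2', a3'])
      · exact fix1 (by rw [Perm.mul_apply, z3', a3])
      · exact ⟨3, odd3, c1⟩
      · exact ⟨3, odd3, c3⟩
      · exact ⟨3, odd3, c2⟩

/-- `v1 -x- v2 -y- v3 -x- v4` and `w1 -y- w2 -x- w3 -y- w4`. -/
lemma red_pair22 {S : Finset α} {x y : Perm α} (hc : Cfg S x y) (hno : ¬ HasC4 x y)
    (IH : ∀ (S' : Finset α) (x' y' : Perm α), S'.card < S.card → Cfg S' x' y' →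
      Sol S' x' y' ∨ Bad S' x' y')
    {v1 v2 v3 v4 w1 w2 w3 w4 : α} (v12 : v1 ≠ v2) (v13 : v1 ≠ v3) (v14 : v1 ≠ v4) (v23 : v2 ≠ v3)
    (v24 : v2 ≠ v4) (v34 : v3 ≠ v4)
    (u12 : w1 ≠ w2) (u13 : w1 ≠ w3) (u14 : w1 ≠ w4) (u23 : w2 ≠ w3)
    (u24 : w2 ≠ w4) (u34 : w3 ≠ w4)
    (a1 : y v1 = v1) (a2 : x v1 = v2) (a3 : y v2 = v3) (a4 : x v3 = v4) (a5 : y v4 = v4)
    (b1 : x w1 = w1) (b2 : y w1 = w2) (b3 : x w2 = w3) (b4 : y w3 = w4) (b5 : x w4 = w4) :
    Sol S x y := by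
  have a2' : x v2 = v1 := by rw [← a2, hc.hx]
  have a3' : y v3 = v2 := by rw [← a3, hc.hy]
  have a4' : x v4 = v3 := by rw [← a4, hc.hx]
  have b2' : y w2 = w1 := by rw [← b2, hc.hy]
  have b3' : x w3 = w2 := by rw [← b3, hc.hx]
  have b4' : y w4 = w3 := by rw [← b4, hc.hy]
  have n11 : v1 ≠ w1 := by rintro rfl; exact v12 (b1.symm.trans a2)
  have n14 : v1 ≠ w4 := by rintro rfl; exact v12 (b5.symm.trans a2)
  have n12 : v1 ≠ w2 := by rintro rfl; exact u12 (b2'.symm.trans a1)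
  have n13 : v1 ≠ w3 := by rintro rfl; exact u34 (a1.symm.trans b4)
  have n21 : v2 ≠ w1 := by rintro rfl; exact v12 (a2'.symm.trans b1)
  have n24 : v2 ≠ w4 := by rintro rfl; exact v12 (a2'.symm.trans b5)
  have n31 : v3 ≠ w1 := by rintro rfl; exact v34 (b1.symm.trans a4)
  have n34 : v3 ≠ w4 := by rintro rfl; exact v34 (b5.symm.trans a4)
  have n41 : v4 ≠ w1 := by rintro rfl; exact v34 (a4'.symm.trans b1)
  have n44 : v4 ≠ w4 := by rintro rfl; exact v34 (a4'.symm.trans b5)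
  have n42 : v4 ≠ w2 := by rintro rfl; exact u12 (b2'.symm.trans a5)
  have n43 : v4 ≠ w3 := by rintro rfl; exact u34 (a5.symm.trans b4)
  have n22 : v2 ≠ w2 := by
    rintro rfl
    have : v1 = w3 := a2'.symm.trans b3
    exact n13 this
  have n23 : v2 ≠ w3 := by
    rintro rfl
    have : v1 = w2 := a2'.symm.trans b3'
    exact n12 this
  have n32 : v3 ≠ w2 := by
    rintro rfl
    have : v4 = w3 := a4.symm.trans b3
    exact n43 this
  have n33 : v3 ≠ w3 := by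
    rintro rfl
    have : v4 = w2 := a4.symm.trans b3'
    exact n42 this
  obtain ⟨x1, hx1, xa, xb, xo, xc⟩ := del_edge hc.hx v12 a2
  obtain ⟨x2, hx2, xa2, xb2, xo2, xc2⟩ := del_edge hx1 v34 (by rw [xo _ v13.symm v23.symm, a4])
  obtain ⟨x3, hx3, xa3, xb3, xo3, xc3⟩ := del_edge hx2 u23
    (by rw [xo2 _ n32.symm n42.symm, xo _ n12.symm n22.symm, b3])
  obtain ⟨y1, hy1, ya, yb, yo, yc⟩ := del_edge hc.hy v23 a3
  obtain ⟨y2, hy2, ya2, yb2, yo2, yc2⟩ := del_edge hy1 u12 (by rw [yo _ n21.symm n31.symm, b2])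
  obtain ⟨y3, hy3, ya3, yb3, yo3, yc3⟩ := del_edge hy2 u34
    (by rw [yo2 _ u13.symm u23.symm, yo _ n23.symm n33.symm, b4])
  have m1 : v1 ∈ S := hc.mem_of_x (by rw [a2]; exact v12.symm)
  have m2 : v2 ∈ S := hc.mem_of_x (by rw [a2']; exact v12)
  have m3 : v3 ∈ S := hc.mem_of_x (by rw [a4]; exact v34.symm)
  have m4 : v4 ∈ S := hc.mem_of_x (by rw [a4']; exact v34)
  have m5 : w1 ∈ S := hc.mem_of_y (by rw [b2]; exact u12.symm)
  have m6 : w2 ∈ S := hc.mem_of_y (by rw [b2']; exact u12)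
  have m7 : w3 ∈ S := hc.mem_of_y (by rw [b4]; exact u34.symm)
  have m8 : w4 ∈ S := hc.mem_of_y (by rw [b4']; exact u34)
  have card := hc.card
  refine block_reduction (T := {v1, v2, v3, v4, w1, w2, w3, w4}) (x' := x3) (y' := y3) hc hno IH ?_ ⟨v1, by simp⟩ hx3 hy3 ?_ ?_ ?_ ?_ ?_ ?_
  · intro t ht; simp only [Finset.mem_insert, Finset.mem_singleton] at ht
    rcases ht with rfl | rfl | rfl | rfl | rfl | rfl | rfl | rfl <;> assumption
  · intro t ht; simp only [Finset.mem_insert, Finset.mem_singleton] at ht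
    rcases ht with rfl | rfl | rfl | rfl | rfl | rfl | rfl | rfl
    · rw [xo3 _ n12 n13, xo2 _ v13 v14]; exact xa
    · rw [xo3 _ n22 n23, xo2 _ v23 v24]; exact xb
    · rw [xo3 _ n32 n33]; exact xa2
    · rw [xo3 _ n42 n43]; exact xb2
    · rw [xo3 _ u12 u13, xo2 _ n31.symm n41.symm, xo _ n11.symm n21.symm, b1]
    · exact xa3
    · exact xb3
    · rw [xo3 _ u24.symm u34.symm, xo2 _ n34.symm n44.symm, xo _ n14.symm n24.symm, b5]
  · intro t ht; simp only [Finset.mem_insert, Finset.mem_singleton] at ht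
    rcases ht with rfl | rfl | rfl | rfl | rfl | rfl | rfl | rfl
    · rw [yo3 _ n13 n14, yo2 _ n11 n12, yo _ v12 v13, a1]
    · rw [yo3 _ n23 n24, yo2 _ n21 n22]; exact ya
    · rw [yo3 _ n33 n34, yo2 _ n31 n32]; exact yb
    · rw [yo3 _ n43 n44, yo2 _ n41 n42, yo _ v24.symm v34.symm, a5]
    · rw [yo3 _ u13 u14]; exact ya2
    · rw [yo3 _ u23 u24]; exact yb2
    · exact ya3
    · exact yb3
  · intro t ht; simp only [Finset.mem_insert, Finset.mem_singleton, not_or] at ht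
    obtain ⟨n1, n2, n3, n4, n5, n6, n7, n8⟩ := ht
    rw [xo3 _ n6 n7, xo2 _ n3 n4, xo _ n1 n2]
  · intro t ht; simp only [Finset.mem_insert, Finset.mem_singleton, not_or] at ht
    obtain ⟨n1, n2, n3, n4, n5, n6, n7, n8⟩ := ht
    rw [yo3 _ n7 n8, yo2 _ n5 n6, yo _ n2 n3]
  · omega
  · intro z' hz' hzT hzc
    obtain ⟨z1, hz1, zu, zv, zo, zc⟩ := add_edge hz' v23 (hzT v2 (by simp)) (hzT v3 (by simp))
    obtain ⟨z2, hz2, zu2, zv2, zo2, zc2⟩ := add_edge hz1 n41
      (by rw [zo _ v24.symm v34.symm]; exact hzT v4 (by simp))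
      (by rw [zo _ n21.symm n31.symm]; exact hzT w1 (by simp))
    obtain ⟨z, hz, zu3, zv3, zo3, zc3⟩ := add_edge hz2 u23
      (by rw [zo2 _ n42.symm u12.symm, zo _ n22.symm n32.symm]; exact hzT w2 (by simp))
      (by rw [zo2 _ n43.symm u13.symm, zo _ n23.symm n33.symm]; exact hzT w3 (by simp))
    have z1' : z v1 = v1 := by
      rw [zo3 _ n12 n13, zo2 _ v14 n11, zo _ v12 v13]; exact hzT v1 (by simp)
    have z2' : z v2 = v3 := by rw [zo3 _ n22 n23, zo2 _ v24 n21, zu]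
    have z3' : z v3 = v2 := by rw [zo3 _ n32 n33, zo2 _ v34 n31, zv]
    have z4' : z v4 = w1 := by rw [zo3 _ n42 n43, zu2]
    have z5' : z w1 = v4 := by rw [zo3 _ u12 u13, zv2]
    have z8' : z w4 = w4 := by
      rw [zo3 _ u24.symm u34.symm, zo2 _ n44.symm u14.symm, zo _ n24.symm n34.symm]
      exact hzT w4 (by simp)
    refine ⟨z, hz, ?_, by omega, ?_, ?_⟩
    · intro t ht; simp only [Finset.mem_insert, Finset.mem_singleton, not_or] at ht
      obtain ⟨n1, n2, n3, n4, n5, n6, n7, n8⟩ := ht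
      rw [zo3 _ n6 n7, zo2 _ n4 n5, zo _ n2 n3]
    · intro t ht; simp only [Finset.mem_insert, Finset.mem_singleton] at ht
      have e1 : (x * z) v1 = v2 := by rw [Perm.mul_apply, z1', a2]
      have e2 : (x * z) v2 = v4 := by rw [Perm.mul_apply, z2', a4]
      have e3 : (x * z) v4 = w1 := by rw [Perm.mul_apply, z4', b1]
      have e4 : (x * z) w1 = v3 := by rw [Perm.mul_apply, z5', a4']
      have e5 : (x * z) v3 = v1 := by rw [Perm.mul_apply, z3', a2']
      obtain ⟨c1, c2, c3, c4, c5⟩ := cyc5_pts e1 e2 e3 e4 e5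
      rcases ht with rfl | rfl | rfl | rfl | rfl | rfl | rfl | rfl
      · exact ⟨5, odd5, c1⟩
      · exact ⟨5, odd5, c2⟩
      · exact ⟨5, odd5, c5⟩
      · exact ⟨5, odd5, c3⟩
      · exact ⟨5, odd5, c4⟩
      · exact fix1 (by rw [Perm.mul_apply, zu3, b3'])
      · exact fix1 (by rw [Perm.mul_apply, zv3, b3])
      · exact fix1 (by rw [Perm.mul_apply, z8', b5])
    · intro t ht; simp only [Finset.mem_insert, Finset.mem_singleton] at ht
      have e1 : (y * z) v4 = w2 := by rw [Perm.mul_apply, z4', b2]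
      have e2 : (y * z) w2 = w4 := by rw [Perm.mul_apply, zu3, b4]
      have e3 : (y * z) w4 = w3 := by rw [Perm.mul_apply, z8', b4']
      have e4 : (y * z) w3 = w1 := by rw [Perm.mul_apply, zv3, b2']
      have e5 : (y * z) w1 = v4 := by rw [Perm.mul_apply, z5', a5]
      obtain ⟨c1, c2, c3, c4, c5⟩ := cyc5_pts e1 e2 e3 e4 e5
      rcases ht with rfl | rfl | rfl | rfl | rfl | rfl | rfl | rfl
      · exact fix1 (by rw [Perm.mul_apply, z1', a1])
      · exact fix1 (by rw [Perm.mul_apply, z2', a3'])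
      · exact fix1 (by rw [Perm.mul_apply, z3', a3])
      · exact ⟨5, odd5, c1⟩
      · exact ⟨5, odd5, c5⟩
      · exact ⟨5, odd5, c2⟩
      · exact ⟨5, odd5, c4⟩
      · exact ⟨5, odd5, c3⟩

end Cfsg.Agent.Lib.OddSym
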