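import Cfsg.Agent.Lib.OddSym.Core

set_option autoImplicit false
set_option linter.unusedSectionVars false
set_option linter.unusedVariables false

namespace Cfsg.Agent.Lib.OddSym

open Equiv Equiv.Perm

variable {α : Type*} [DecidableEq α] [Fintype α]

structure Cfg (S : Finset α) (x y : Perm α) : Prop where
  hx : Invol x
  hy : Invol y
  fx : ∀ v, v ∉ S → x v = v
  fy : ∀ v, v ∉ S → y v = v
  card : x.support.card = y.support.card

def C4 (x y : Perm α) (a b c d : α) : Prop :=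
  a ≠ b ∧ a ≠ c ∧ a ≠ d ∧ b ≠ c ∧ b ≠ d ∧ c ≠ d ∧ x a = b ∧ y b = c ∧ x c = d ∧ y d = a

def HasC4 (x y : Perm α) : Prop := ∃ a b c d, C4 x y a b c d

def Bad (S : Finset α) (x y : Perm α) : Prop := ∃ a b c d, C4 x y a b c d ∧ S = {a, b, c, d}

def Sol (S : Finset α) (x y : Perm α) : Prop :=
  ∃ z : Perm α, Invol z ∧ (∀ v, v ∉ S → z v = v) ∧ z.support.card = x.support.card ∧
    OddP (x * z) ∧ OddP (y * z)

lemma Cfg.symm {S : Finset α} {x y : Perm α} (h : Cfg S x y) : Cfg S y x :=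
  ⟨h.hy, h.hx, h.fy, h.fx, h.card.symm⟩

lemma Sol.symm {S : Finset α} {x y : Perm α} (hc : x.support.card = y.support.card)
    (h : Sol S x y) : Sol S y x := by
  obtain ⟨z, h1, h2, h3, h4, h5⟩ := h
  exact ⟨z, h1, h2, h3.trans hc, h5, h4⟩

lemma C4.symm {x y : Perm α} {a b c d : α} (h : C4 x y a b c d) : C4 y x b c d a := by
  obtain ⟨h1, h2, h3, h4, h5, h6, h7, h8, h9, h10⟩ := h
  exact ⟨h4, h5, h1.symm, h6, h2.symm, h3.symm, h8, h9, h10, h7⟩

lemma HasC4.symm {x y : Perm α} (h : HasC4 x y) : HasC4 y x := by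
  obtain ⟨a, b, c, d, h⟩ := h
  exact ⟨b, c, d, a, h.symm⟩

lemma Cfg.mem_of_x {S : Finset α} {x y : Perm α} (h : Cfg S x y) {t : α} (ht : x t ≠ t) : t ∈ S := by
  by_contra h2; exact ht (h.fx t h2)

lemma Cfg.mem_of_y {S : Finset α} {x y : Perm α} (h : Cfg S x y) {t : α} (ht : y t ≠ t) : t ∈ S := by
  by_contra h2; exact ht (h.fy t h2)

lemma no_bad_of_agree {T : Finset α} {x y x' y' : Perm α}
    (hfx : ∀ t ∈ T, x' t = t) (hfy : ∀ t ∈ T, y' t = t)
    (hax : ∀ t, t ∉ T → x' t = x t) (hay : ∀ t, t ∉ T → y' t = y t)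
    (hno : ¬ HasC4 x y) : ¬ HasC4 x' y' := by
  rintro ⟨a, b, c, d, h1, h2, h3, h4, h5, h6, h7, h8, h9, h10⟩
  have ha : a ∉ T := fun h => h1 ((hfx a h).symm.trans h7)
  have hb : b ∉ T := fun h => h4 ((hfy b h).symm.trans h8)
  have hc : c ∉ T := fun h => h6 ((hfx c h).symm.trans h9)
  have hd : d ∉ T := fun h => h3.symm ((hfy d h).symm.trans h10)
  exact hno ⟨a, b, c, d, h1, h2, h3, h4, h5, h6, (hax a ha).symm.trans h7, (hay b hb).symm.trans h8,
    (hax c hc).symm.trans h9, (hay d hd).symm.trans h10⟩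

/-- General step for a block: transfer of oddness. -/
lemma block_step {x x' z z' : Perm α} {T : Finset α} (hx'T : ∀ t ∈ T, x' t = t)
    (hz'T : ∀ t ∈ T, z' t = t) (hax : ∀ t, t ∉ T → x' t = x t)
    (hzout : ∀ t, t ∉ T → z t = z' t) (h : OddP (x' * z'))
    (hin : ∀ t ∈ T, ∃ k : ℕ, Odd k ∧ ((x * z) ^ k) t = t) : OddP (x * z) := by
  refine h.block T ?_ ?_ hin
  · intro t ht
    rw [Perm.mul_apply, hz'T t ht, hx'T t ht]
  · intro t ht
    have h1 : z' t ∉ T := by
      intro h2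
      have h3 := hz'T _ h2
      have h4 := z'.injective h3
      exact ht (h4 ▸ h2)
    rw [Perm.mul_apply, Perm.mul_apply, hzout t ht, hax _ h1]

lemma fix1 {w : Perm α} {t : α} (h : w t = t) : ∃ k : ℕ, Odd k ∧ (w ^ k) t = t :=
  ⟨1, odd_one, by simpa using h⟩

/-- High-level block reduction. -/
lemma block_reduction {S T : Finset α} {x y x' y' : Perm α} (hc : Cfg S x y) (hno : ¬ HasC4 x y)
    (IH : ∀ (S' : Finset α) (x' y' : Perm α), S'.card < S.card → Cfg S' x' y' →
      Sol S' x' y' ∨ Bad S' x' y')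
    (hTS : T ⊆ S) (hTne : T.Nonempty) (hx' : Invol x') (hy' : Invol y')
    (hfx : ∀ t ∈ T, x' t = t) (hfy : ∀ t ∈ T, y' t = t)
    (hax : ∀ t, t ∉ T → x' t = x t) (hay : ∀ t, t ∉ T → y' t = y t)
    (hcard : x'.support.card = y'.support.card)
    (build : ∀ z' : Perm α, Invol z' → (∀ t ∈ T, z' t = t) → z'.support.card = x'.support.card →
      ∃ z : Perm α, Invol z ∧ (∀ t, t ∉ T → z t = z' t) ∧ z.support.card = x.support.card ∧
        (∀ t ∈ T, ∃ k : ℕ, Odd k ∧ ((x * z) ^ k) t = t) ∧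
        (∀ t ∈ T, ∃ k : ℕ, Odd k ∧ ((y * z) ^ k) t = t)) : Sol S x y := by
  have hlt : (S \ T).card < S.card := by
    apply Finset.card_lt_card
    refine ⟨Finset.sdiff_subset, ?_⟩
    obtain ⟨t, ht⟩ := hTne
    intro h
    have := h (hTS ht)
    simp at this
    exact this.2 ht
  have hcfg : Cfg (S \ T) x' y' := by
    refine ⟨hx', hy', ?_, ?_, hcard⟩
    · intro t ht
      by_cases h : t ∈ T
      · exact hfx t h
      · rw [hax t h]
        apply hc.fx
        intro h2; exact ht (Finset.mem_sdiff.2 ⟨h2, h⟩)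
    · intro t ht
      by_cases h : t ∈ T
      · exact hfy t h
      · rw [hay t h]
        apply hc.fy
        intro h2; exact ht (Finset.mem_sdiff.2 ⟨h2, h⟩)
  rcases IH _ _ _ hlt hcfg with hsol | hbad
  · obtain ⟨z', hz', hzf, hzc, hoddx, hoddy⟩ := hsol
    have hz'T : ∀ t ∈ T, z' t = t := by
      intro t ht
      apply hzf
      intro h; exact (Finset.mem_sdiff.1 h).2 ht
    obtain ⟨z, hz, hzo, hzcard, h1, h2⟩ := build z' hz' hz'T hzc
    refine ⟨z, hz, ?_, hzcard, ?_, ?_⟩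
    · intro v hv
      have hvT : v ∉ T := fun h => hv (hTS h)
      rw [hzo v hvT]
      apply hzf
      intro h; exact hv (Finset.mem_sdiff.1 h).1
    · exact block_step hfx hz'T hax hzo hoddx h1
    · exact block_step hfy hz'T hay hzo hoddy h2
  · exfalso
    obtain ⟨a, b, c, d, h, _⟩ := hbad
    exact no_bad_of_agree hfx hfy hax hay hno ⟨a, b, c, d, h⟩

/-- A double edge. -/
lemma red_dbl {S : Finset α} {x y : Perm α} (hc : Cfg S x y) (hno : ¬ HasC4 x y)
    (IH : ∀ (S' : Finset α) (x' y' : Perm α), S'.card < S.card → Cfg S' x' y' →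
      Sol S' x' y' ∨ Bad S' x' y')
    {u v : α} (huv : u ≠ v) (h1 : x u = v) (h2 : y u = v) : Sol S x y := by
  have h1' : x v = u := by rw [← h1, hc.hx]
  have h2' : y v = u := by rw [← h2, hc.hy]
  obtain ⟨x', hx', xu, xv, xo, xc⟩ := del_edge hc.hx huv h1
  obtain ⟨y', hy', yu, yv, yo, yc⟩ := del_edge hc.hy huv h2
  have hum : u ∈ S := hc.mem_of_x (by rw [h1]; exact huv.symm)
  have hvm : v ∈ S := hc.mem_of_x (by rw [h1']; exact huv)
  have card := hc.card
  refine block_reduction (T := {u, v}) (x' := x') (y' := y') hc hno IH ?_ ⟨u, by simp⟩ hx' hy' ?_ ?_ ?_ ?_ ?_ ?_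
  · intro t ht; simp only [Finset.mem_insert, Finset.mem_singleton] at ht
    rcases ht with rfl | rfl <;> assumption
  · intro t ht; simp only [Finset.mem_insert, Finset.mem_singleton] at ht
    rcases ht with rfl | rfl <;> assumption
  · intro t ht; simp only [Finset.mem_insert, Finset.mem_singleton] at ht
    rcases ht with rfl | rfl <;> assumption
  · intro t ht; simp only [Finset.mem_insert, Finset.mem_singleton, not_or] at ht
    exact xo t ht.1 ht.2
  · intro t ht; simp only [Finset.mem_insert, Finset.mem_singleton, not_or] at ht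
    exact yo t ht.1 ht.2
  · omega
  · intro z' hz' hzT hzc
    obtain ⟨z, hz, zu, zv, zo, zc⟩ := add_edge hz' huv (hzT u (by simp)) (hzT v (by simp))
    refine ⟨z, hz, ?_, by omega, ?_, ?_⟩
    · intro t ht; simp only [Finset.mem_insert, Finset.mem_singleton, not_or] at ht
      exact zo t ht.1 ht.2
    · intro t ht; simp only [Finset.mem_insert, Finset.mem_singleton] at ht
      rcases ht with rfl | rfl
      · exact fix1 (by rw [Perm.mul_apply, zu, h1'])
      · exact fix1 (by rw [Perm.mul_apply, zv, h1])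
    · intro t ht; simp only [Finset.mem_insert, Finset.mem_singleton] at ht
      rcases ht with rfl | rfl
      · exact fix1 (by rw [Perm.mul_apply, zu, h2'])
      · exact fix1 (by rw [Perm.mul_apply, zv, h2])

/-- A path on three points `u -y- u1 -x- u2`. -/
lemma red_p3 {S : Finset α} {x y : Perm α} (hc : Cfg S x y) (hno : ¬ HasC4 x y)
    (IH : ∀ (S' : Finset α) (x' y' : Perm α), S'.card < S.card → Cfg S' x' y' →
      Sol S' x' y' ∨ Bad S' x' y')
    {u u1 u2 : α} (h01 : u ≠ u1) (h02 : u ≠ u2) (h12 : u1 ≠ u2)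
    (hxu : x u = u) (h1 : y u = u1) (h2 : x u1 = u2) (hyu2 : y u2 = u2) : Sol S x y := by
  have h1' : y u1 = u := by rw [← h1, hc.hy]
  have h2' : x u2 = u1 := by rw [← h2, hc.hx]
  obtain ⟨x', hx', xa, xb, xo, xc⟩ := del_edge hc.hx h12 h2
  obtain ⟨y', hy', ya, yb, yo, yc⟩ := del_edge hc.hy h01 h1
  have m0 : u ∈ S := hc.mem_of_y (by rw [h1]; exact h01.symm)
  have m1 : u1 ∈ S := hc.mem_of_y (by rw [h1']; exact h01)
  have m2 : u2 ∈ S := hc.mem_of_x (by rw [h2']; exact h12)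
  have card := hc.card
  refine block_reduction (T := {u, u1, u2}) (x' := x') (y' := y') hc hno IH ?_ ⟨u, by simp⟩ hx' hy' ?_ ?_ ?_ ?_ ?_ ?_
  · intro t ht; simp only [Finset.mem_insert, Finset.mem_singleton] at ht
    rcases ht with rfl | rfl | rfl <;> assumption
  · intro t ht; simp only [Finset.mem_insert, Finset.mem_singleton] at ht
    rcases ht with rfl | rfl | rfl
    · rw [xo _ h01 h02, hxu]
    · exact xa
    · exact xb
  · intro t ht; simp only [Finset.mem_insert, Finset.mem_singleton] at ht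
    rcases ht with rfl | rfl | rfl
    · exact ya
    · exact yb
    · rw [yo _ h02.symm h12.symm, hyu2]
  · intro t ht; simp only [Finset.mem_insert, Finset.mem_singleton, not_or] at ht
    exact xo t ht.2.1 ht.2.2
  · intro t ht; simp only [Finset.mem_insert, Finset.mem_singleton, not_or] at ht
    exact yo t ht.1 ht.2.1
  · omega
  · intro z' hz' hzT hzc
    obtain ⟨z, hz, zu, zv, zo, zc⟩ := add_edge hz' h01 (hzT u (by simp)) (hzT u1 (by simp))
    have zu2 : z u2 = u2 := by rw [zo _ h02.symm h12.symm]; exact hzT u2 (by simp)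
    refine ⟨z, hz, ?_, by omega, ?_, ?_⟩
    · intro t ht; simp only [Finset.mem_insert, Finset.mem_singleton, not_or] at ht
      exact zo t ht.1 ht.2.1
    · intro t ht; simp only [Finset.mem_insert, Finset.mem_singleton] at ht
      have e1 : (x * z) u = u2 := by rw [Perm.mul_apply, zu, h2]
      have e2 : (x * z) u2 = u1 := by rw [Perm.mul_apply, zu2, h2']
      have e3 : (x * z) u1 = u := by rw [Perm.mul_apply, zv, hxu]
      obtain ⟨c1, c2, c3⟩ := cyc3_pts e1 e2 e3
      rcases ht with rfl | rfl | rfl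
      · exact ⟨3, odd3, c1⟩
      · exact ⟨3, odd3, c3⟩
      · exact ⟨3, odd3, c2⟩
    · intro t ht; simp only [Finset.mem_insert, Finset.mem_singleton] at ht
      rcases ht with rfl | rfl | rfl
      · exact fix1 (by rw [Perm.mul_apply, zu, h1'])
      · exact fix1 (by rw [Perm.mul_apply, zv, h1])
      · exact fix1 (by rw [Perm.mul_apply, zu2, hyu2])

/-- A path on five points `u -y- u1 -x- u2 -y- u3 -x- u4`. -/
lemma red_p5 {S : Finset α} {x y : Perm α} (hc : Cfg S x y) (hno : ¬ HasC4 x y)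
    (IH : ∀ (S' : Finset α) (x' y' : Perm α), S'.card < S.card → Cfg S' x' y' →
      Sol S' x' y' ∨ Bad S' x' y')
    {u u1 u2 u3 u4 : α} (h01 : u ≠ u1) (h02 : u ≠ u2) (h03 : u ≠ u3) (h04 : u ≠ u4)
    (h12 : u1 ≠ u2) (h13 : u1 ≠ u3) (h14 : u1 ≠ u4) (h23 : u2 ≠ u3) (h24 : u2 ≠ u4) (h34 : u3 ≠ u4)
    (hxu : x u = u) (h1 : y u = u1) (h2 : x u1 = u2) (h3 : y u2 = u3) (h4 : x u3 = u4)
    (hyu4 : y u4 = u4) : Sol S x y := by
  have h1' : y u1 = u := by rw [← h1, hc.hy]
  have h2' : x u2 = u1 := by rw [← h2, hc.hx]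
  have h3' : y u3 = u2 := by rw [← h3, hc.hy]
  have h4' : x u4 = u3 := by rw [← h4, hc.hx]
  obtain ⟨x1, hx1, xa, xb, xo, xc⟩ := del_edge hc.hx h12 h2
  obtain ⟨x2, hx2, xa2, xb2, xo2, xc2⟩ := del_edge hx1 h34 (by rw [xo _ h13.symm h23.symm, h4])
  obtain ⟨y1, hy1, ya, yb, yo, yc⟩ := del_edge hc.hy h01 h1
  obtain ⟨y2, hy2, ya2, yb2, yo2, yc2⟩ := del_edge hy1 h23 (by rw [yo _ h02.symm h12.symm, h3])
  have m0 : u ∈ S := hc.mem_of_y (by rw [h1]; exact h01.symm)
  have m1 : u1 ∈ S := hc.mem_of_y (by rw [h1']; exact h01)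
  have m2 : u2 ∈ S := hc.mem_of_x (by rw [h2']; exact h12)
  have m3 : u3 ∈ S := hc.mem_of_y (by rw [h3']; exact h23)
  have m4 : u4 ∈ S := hc.mem_of_x (by rw [h4']; exact h34)
  have card := hc.card
  refine block_reduction (T := {u, u1, u2, u3, u4}) (x' := x2) (y' := y2) hc hno IH ?_ ⟨u, by simp⟩ hx2 hy2 ?_ ?_ ?_ ?_ ?_ ?_
  · intro t ht; simp only [Finset.mem_insert, Finset.mem_singleton] at ht
    rcases ht with rfl | rfl | rfl | rfl | rfl <;> assumption
  · intro t ht; simp only [Finset.mem_insert, Finset.mem_singleton] at ht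
    rcases ht with rfl | rfl | rfl | rfl | rfl
    · rw [xo2 _ h03 h04, xo _ h01 h02, hxu]
    · rw [xo2 _ h13 h14]; exact xa
    · rw [xo2 _ h23 h24]; exact xb
    · exact xa2
    · exact xb2
  · intro t ht; simp only [Finset.mem_insert, Finset.mem_singleton] at ht
    rcases ht with rfl | rfl | rfl | rfl | rfl
    · rw [yo2 _ h02 h03]; exact ya
    · rw [yo2 _ h12 h13]; exact yb
    · exact ya2
    · exact yb2
    · rw [yo2 _ h24.symm h34.symm, yo _ h04.symm h14.symm, hyu4]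
  · intro t ht; simp only [Finset.mem_insert, Finset.mem_singleton, not_or] at ht
    obtain ⟨n0, n1, n2, n3, n4⟩ := ht
    rw [xo2 _ n3 n4, xo _ n1 n2]
  · intro t ht; simp only [Finset.mem_insert, Finset.mem_singleton, not_or] at ht
    obtain ⟨n0, n1, n2, n3, n4⟩ := ht
    rw [yo2 _ n2 n3, yo _ n0 n1]
  · omega
  · intro z' hz' hzT hzc
    obtain ⟨z1, hz1, zu, zv, zo, zc⟩ := add_edge hz' h01 (hzT u (by simp)) (hzT u1 (by simp))
    obtain ⟨z, hz, zu2, zu3, zo2, zc2⟩ := add_edge hz1 h23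
      (by rw [zo _ h02.symm h12.symm]; exact hzT u2 (by simp))
      (by rw [zo _ h03.symm h13.symm]; exact hzT u3 (by simp))
    have z0 : z u = u1 := by rw [zo2 _ h02 h03, zu]
    have z1' : z u1 = u := by rw [zo2 _ h12 h13, zv]
    have z4 : z u4 = u4 := by
      rw [zo2 _ h24.symm h34.symm, zo _ h04.symm h14.symm]; exact hzT u4 (by simp)
    refine ⟨z, hz, ?_, by omega, ?_, ?_⟩
    · intro t ht; simp only [Finset.mem_insert, Finset.mem_singleton, not_or] at ht
      obtain ⟨n0, n1, n2, n3, n4⟩ := ht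
      rw [zo2 _ n2 n3, zo _ n0 n1]
    · intro t ht; simp only [Finset.mem_insert, Finset.mem_singleton] at ht
      have e1 : (x * z) u = u2 := by rw [Perm.mul_apply, z0, h2]
      have e2 : (x * z) u2 = u4 := by rw [Perm.mul_apply, zu2, h4]
      have e3 : (x * z) u4 = u3 := by rw [Perm.mul_apply, z4, h4']
      have e4 : (x * z) u3 = u1 := by rw [Perm.mul_apply, zu3, h2']
      have e5 : (x * z) u1 = u := by rw [Perm.mul_apply, z1', hxu]
      obtain ⟨c1, c2, c3, c4, c5⟩ := cyc5_pts e1 e2 e3 e4 e5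
      rcases ht with rfl | rfl | rfl | rfl | rfl
      · exact ⟨5, odd5, c1⟩
      · exact ⟨5, odd5, c5⟩
      · exact ⟨5, odd5, c2⟩
      · exact ⟨5, odd5, c4⟩
      · exact ⟨5, odd5, c3⟩
    · intro t ht; simp only [Finset.mem_insert, Finset.mem_singleton] at ht
      rcases ht with rfl | rfl | rfl | rfl | rfl
      · exact fix1 (by rw [Perm.mul_apply, z0, h1'])
      · exact fix1 (by rw [Perm.mul_apply, z1', h1])
      · exact fix1 (by rw [Perm.mul_apply, zu2, h3'])
      · exact fix1 (by rw [Perm.mul_apply, zu3, h3])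
      · exact fix1 (by rw [Perm.mul_apply, z4, hyu4])

end Cfsg.Agent.Lib.OddSym
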